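import Mathlib
import Cfsg.Agent.Lib.Helper80.Orthogonality
import Cfsg.Agent.Lib.Helper80.CharKer
import Cfsg.Agent.Lib.Helper79.Linear

/-!
# Helper29: automorphism orbits of a non-abelian finite group (Laffey–MacHale)

The number of `Aut(G)`-orbits on a non-abelian finite group `G` is at most `|G|/p`,
`p` the least prime divisor of `|G|`.
-/

set_option autoImplicit false

namespace Cfsg.Agent.Lib.Helper29.AutOrb

universe u

section chars
variable {G : Type u} [Group G] [Finite G]

/-- if there are more than `|G|/p` classes (`p` the least prime divisor), then `|G'| ≤ p` -/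
theorem card_commutator_le
    (hk : Nat.card G < Nat.card (ConjClasses G) * (Nat.card G).minFac) :
    Nat.card (commutator G) ≤ (Nat.card G).minFac := by
  classical
  haveI := Fintype.ofFinite G
  haveI := Fintype.ofFinite (Cfsg.IrrCharacter G)
  have hsum := Cfsg.Agent.Lib.Helper80.sum_charDegree_sq (G := G)
  have hk' := Cfsg.Agent.Lib.Helper80.card_irr_eq_card_conjClasses (G := G)
  have hlin := Cfsg.Agent.Lib.Helper79.card_linear_irr_le (G := G)
  obtain ⟨n, hn⟩ : ∃ n : ℕ, n = Nat.card G := ⟨_, rfl⟩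
  obtain ⟨p, hp⟩ : ∃ p : ℕ, p = (Nat.card G).minFac := ⟨_, rfl⟩
  obtain ⟨a, ha⟩ : ∃ a : ℕ, a = (commutator G).index := ⟨_, rfl⟩
  obtain ⟨g', hg'⟩ : ∃ g' : ℕ, g' = Nat.card (commutator G) := ⟨_, rfl⟩
  have hkle : Nat.card (ConjClasses G) ≤ Nat.card G :=
    Nat.card_le_card_of_surjective ConjClasses.mk ConjClasses.mk_surjective
  have hp2 : 2 ≤ p := by
    rw [hp]
    have : (Nat.card G).minFac.Prime := Nat.minFac_prime (by
      intro h1
      rw [h1] at hk hkle
      have hm : Nat.minFac 1 = 1 := Nat.minFac_one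
      rw [hm] at hk
      omega)
    exact this.two_le
  rw [← hp, ← hn] at hk
  rw [← hp, ← hg']
  rw [← hn] at hsum
  rw [← ha] at hlin
  have hag : g' * a = n := by rw [hg', ha, hn]; exact Subgroup.card_mul_index _
  have hnpos : 0 < n := by rw [hn]; exact Nat.card_pos
  -- degrees
  let d : Cfsg.IrrCharacter G → ℕ := fun χ => Cfsg.charDegree (χ : G → ℂ)
  have hd : ∀ χ : Cfsg.IrrCharacter G, d χ ≠ 1 → p ≤ d χ := by
    intro χ h1
    rw [hp]
    apply Nat.minFac_le_of_dvd
    · have := Cfsg.Agent.Lib.Helper80.charDegree_pos χ.2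
      have h2 : d χ ≠ 0 := this.ne'
      omega
    · exact Cfsg.Agent.Lib.Helper80.charDegree_dvd_card χ.2
  obtain ⟨l, hl⟩ : ∃ l : ℕ, l = (Finset.univ.filter (fun χ : Cfsg.IrrCharacter G => d χ = 1)).card :=
    ⟨_, rfl⟩
  obtain ⟨m, hm⟩ : ∃ m : ℕ, m = (Finset.univ.filter (fun χ : Cfsg.IrrCharacter G => ¬ d χ = 1)).card :=
    ⟨_, rfl⟩
  have hlm : l + m = Nat.card (ConjClasses G) := by
    rw [← hk', Nat.card_eq_fintype_card, ← Finset.card_univ, hl, hm]
    exact Finset.card_filter_add_card_filter_not _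
  have hla : l ≤ a := by
    refine le_trans (le_of_eq ?_) hlin
    rw [hl, Nat.card_eq_fintype_card, Fintype.card_subtype]
    congr 1
    ext χ
    simp only [Finset.mem_filter, Finset.mem_univ, true_and]
    rw [Cfsg.Agent.Lib.Helper80.char_one_eq_charDegree
      (Cfsg.Agent.Lib.Helper80.isCharacter_of_isIrrCharacter χ.2)]
    exact_mod_cast Iff.rfl
  have hsum2 : l + p ^ 2 * m ≤ n := by
    rw [← hsum]
    have h1 : ∀ χ : Cfsg.IrrCharacter G, (if d χ = 1 then 1 else p ^ 2) ≤ d χ ^ 2 := by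
      intro χ
      by_cases h : d χ = 1
      · rw [if_pos h, h]; norm_num
      · rw [if_neg h]; exact Nat.pow_le_pow_left (hd χ h) 2
    have h2 := Finset.sum_le_sum (fun χ (_ : χ ∈ (Finset.univ : Finset (Cfsg.IrrCharacter G))) => h1 χ)
    refine le_trans (le_of_eq ?_) h2
    rw [Finset.sum_ite, Finset.sum_const, Finset.sum_const, ← hl, ← hm]
    simp [mul_comm]
  rw [← hlm] at hk
  by_contra hcon
  have hg1 : p + 1 ≤ g' := by omega
  have h3 : a * (p + 1) ≤ n := by rw [← hag]; nlinarith
  obtain ⟨q, rfl⟩ : ∃ q, p = q + 1 := ⟨p - 1, by omega⟩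
  nlinarith [Nat.zero_le (q * m), Nat.zero_le (q * a), Nat.zero_le (q * l), Nat.zero_le m,
    Nat.mul_le_mul_left q h3, Nat.mul_le_mul_left q hk, Nat.mul_le_mul_left q hla,
    Nat.mul_le_mul_left (q * q) hla]


/-- a normal subgroup whose order is the least prime divisor of `|G|` is central -/
theorem central_of_card_minFac (hc : Nat.card (commutator G) = (Nat.card G).minFac)
    (hn1 : Nat.card G ≠ 1) :
    ∀ c ∈ commutator G, ∀ g : G, g * c = c * g := by
  obtain ⟨p, hp⟩ : ∃ p : ℕ, p = (Nat.card G).minFac := ⟨_, rfl⟩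
  rw [← hp] at hc
  have hpp : p.Prime := by rw [hp]; exact Nat.minFac_prime hn1
  haveI : Fact p.Prime := ⟨hpp⟩
  let φ : G →* MulAut (commutator G) := MulAut.conjNormal
  have hker : φ.ker = ⊤ := by
    rw [← Subgroup.index_eq_one]
    have h1 : φ.ker.index ∣ p - 1 := by
      rw [Subgroup.index_ker]
      haveI : IsCyclic (commutator G) := isCyclic_of_prime_card hc
      have : Nat.card (MulAut (commutator G)) = p - 1 := by
        rw [IsCyclic.card_mulAut, hc, Nat.totient_prime hpp]
      rw [← this]; exact Subgroup.card_subgroup_dvd_card _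
    have h2 : φ.ker.index ∣ Nat.card G := Subgroup.index_dvd_card _
    by_contra hne
    have hpos : 0 < p - 1 := by have := hpp.two_le; omega
    have h3 : φ.ker.index ≤ p - 1 := Nat.le_of_dvd hpos h1
    have h4 : φ.ker.index ≠ 0 := fun h0 => by rw [h0] at h1; simp at h1; omega
    have h5 : (Nat.card G).minFac ≤ φ.ker.index := Nat.minFac_le_of_dvd (by omega) h2
    rw [← hp] at h5
    omega
  intro c hcm g
  have h1 : g ∈ φ.ker := by rw [hker]; trivial
  have h2 : φ g ⟨c, hcm⟩ = ⟨c, hcm⟩ := by rw [MonoidHom.mem_ker.1 h1]; rfl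
  have h3 : g * c * g⁻¹ = c := by
    have := congrArg Subtype.val h2
    rwa [MulAut.conjNormal_apply] at this
  calc g * c = (g * c * g⁻¹) * g := by group
    _ = c * g := by rw [h3]

/-- the centre of a non-abelian group has index at least `p ^ 2` -/
theorem card_center_mul_sq_le (hna : ¬ IsMulCommutative G) :
    Nat.card (Subgroup.center G) * (Nat.card G).minFac ^ 2 ≤ Nat.card G := by
  obtain ⟨m, hm⟩ : ∃ m : ℕ, m = (Subgroup.center G).index := ⟨_, rfl⟩
  have hzm : Nat.card (Subgroup.center G) * m = Nat.card G := by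
    rw [hm]; exact Subgroup.card_mul_index _
  have hmd : m ∣ Nat.card G := ⟨_, by rw [← hzm, mul_comm]⟩
  have hmcard : Nat.card (G ⧸ Subgroup.center G) = m := by rw [hm]; rfl
  have hncyc : ¬ IsCyclic (G ⧸ Subgroup.center G) := by
    intro hcyc
    apply hna
    apply MonoidHom.isMulCommutative_of_isCyclic_of_ker_le_center (QuotientGroup.mk' (Subgroup.center G))
    rw [QuotientGroup.ker_mk']
  have hm1 : m ≠ 1 := by
    intro h1
    apply hncyc
    haveI : Subsingleton (G ⧸ Subgroup.center G) := by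
      rw [← Finite.card_le_one_iff_subsingleton, hmcard, h1]
    infer_instance
  have hm0 : m ≠ 0 := by
    intro h0
    rw [h0] at hzm
    have : 0 < Nat.card G := Nat.card_pos
    omega
  obtain ⟨q, hq⟩ : ∃ q : ℕ, q = m.minFac := ⟨_, rfl⟩
  have hqp : q.Prime := by rw [hq]; exact Nat.minFac_prime hm1
  obtain ⟨r, hr⟩ : ∃ r, m = q * r := by rw [hq]; exact Nat.minFac_dvd m
  have hr1 : r ≠ 1 := by
    intro h1
    rw [h1, mul_one] at hr
    apply hncyc
    haveI : Fact q.Prime := ⟨hqp⟩
    exact isCyclic_of_prime_card (hmcard.trans hr)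
  have hr0 : r ≠ 0 := by
    intro h0
    rw [h0, mul_zero] at hr
    exact hm0 hr
  have hpq : (Nat.card G).minFac ≤ q :=
    Nat.minFac_le_of_dvd hqp.two_le (dvd_trans ⟨r, hr⟩ hmd)
  have hpr : (Nat.card G).minFac ≤ r :=
    Nat.minFac_le_of_dvd (by omega) (dvd_trans ⟨q, by rw [hr, mul_comm]⟩ hmd)
  obtain ⟨p, hp⟩ : ∃ p : ℕ, p = (Nat.card G).minFac := ⟨_, rfl⟩
  rw [← hp] at hpq hpr ⊢
  rw [← hzm, hr, pow_two]
  exact Nat.mul_le_mul_left _ (Nat.mul_le_mul hpq hpr)

/-- the number of automorphism orbits is at most the number of conjugacy classes -/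
theorem card_orbits_le_card_conjClasses :
    Nat.card (MulAction.orbitRel.Quotient (MulAut G) G) ≤ Nat.card (ConjClasses G) := by
  let f : ConjClasses G → MulAction.orbitRel.Quotient (MulAut G) G :=
    Quotient.lift (fun g : G => (Quotient.mk'' g : MulAction.orbitRel.Quotient (MulAut G) G))
      (by
        intro a b hab
        obtain ⟨c, hc⟩ := isConj_iff.1 hab
        apply Quotient.sound'
        show a ∈ MulAction.orbit (MulAut G) b
        refine ⟨MulAut.conj c⁻¹, ?_⟩
        show (MulAut.conj c⁻¹) b = a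
        rw [MulAut.conj_apply, ← hc]
        group)
  apply Nat.card_le_card_of_surjective f
  intro q
  induction q using Quotient.inductionOn' with
  | h g => exact ⟨ConjClasses.mk g, rfl⟩

end chars

open scoped commutatorElement

section class2
variable {G : Type u} [Group G]

theorem comm_mem (a b : G) : ⁅a, b⁆ ∈ commutator G := by
  rw [commutator_def]
  exact Subgroup.commutator_mem_commutator (Subgroup.mem_top a) (Subgroup.mem_top b)

theorem comm_mul_left (hZ : ∀ c ∈ commutator G, ∀ g : G, g * c = c * g) (a b x : G) :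
    ⁅a * b, x⁆ = ⁅a, x⁆ * ⁅b, x⁆ := by
  have h1 : ⁅a * b, x⁆ = a * ⁅b, x⁆ * a⁻¹ * ⁅a, x⁆ := by
    simp only [commutatorElement_def]; group
  rw [h1, hZ _ (comm_mem b x) a, mul_inv_cancel_right]
  exact (hZ _ (comm_mem b x) ⁅a, x⁆).symm

theorem comm_mul_right (hZ : ∀ c ∈ commutator G, ∀ g : G, g * c = c * g) (g t t' : G) :
    ⁅g, t * t'⁆ = ⁅g, t⁆ * ⁅g, t'⁆ := by
  rw [← commutatorElement_inv (t * t') g, comm_mul_left hZ, mul_inv_rev,
    commutatorElement_inv, commutatorElement_inv]
  exact hZ _ (comm_mem g t) ⁅g, t'⁆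

/-- `h ↦ ⁅h, x⁆` as a homomorphism, in class two -/
def comHom (hZ : ∀ c ∈ commutator G, ∀ g : G, g * c = c * g) (x : G) : G →* G where
  toFun h := ⁅h, x⁆
  map_one' := by simp
  map_mul' a b := comm_mul_left hZ a b x

theorem comHom_apply (hZ : ∀ c ∈ commutator G, ∀ g : G, g * c = c * g) (x h : G) :
    comHom hZ x h = ⁅h, x⁆ := rfl

/-- `t ↦ ⁅g, t⁆` as a homomorphism, in class two -/
def comHomR (hZ : ∀ c ∈ commutator G, ∀ g : G, g * c = c * g) (g : G) : G →* G where
  toFun t := ⁅g, t⁆
  map_one' := by simp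
  map_mul' a b := comm_mul_right hZ g a b

theorem comHomR_apply (hZ : ∀ c ∈ commutator G, ∀ g : G, g * c = c * g) (g t : G) :
    comHomR hZ g t = ⁅g, t⁆ := rfl

theorem comm_zpow_right (hZ : ∀ c ∈ commutator G, ∀ g : G, g * c = c * g) (g t : G) (j : ℤ) :
    ⁅g, t ^ j⁆ = ⁅g, t⁆ ^ j := by
  rw [← comHomR_apply hZ, map_zpow, comHomR_apply]

theorem comm_pow_right (hZ : ∀ c ∈ commutator G, ∀ g : G, g * c = c * g) (g t : G) (j : ℕ) :
    ⁅g, t ^ j⁆ = ⁅g, t⁆ ^ j := by
  rw [← comHomR_apply hZ, map_pow, comHomR_apply]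

theorem comm_pow_left (hZ : ∀ c ∈ commutator G, ∀ g : G, g * c = c * g) (g t : G) (j : ℕ) :
    ⁅g ^ j, t⁆ = ⁅g, t⁆ ^ j := by
  rw [← comHom_apply hZ, map_pow, comHom_apply]

theorem comm_zpow_left (hZ : ∀ c ∈ commutator G, ∀ g : G, g * c = c * g) (g t : G) (j : ℤ) :
    ⁅g ^ j, t⁆ = ⁅g, t⁆ ^ j := by
  rw [← comHom_apply hZ, map_zpow, comHom_apply]

theorem comm_eq_one_iff (a b : G) : ⁅a, b⁆ = 1 ↔ a * b = b * a := by
  rw [commutatorElement_def]
  constructor
  · intro h
    have : a * b = (a * b * a⁻¹ * b⁻¹) * (b * a) := by group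
    rw [this, h, one_mul]
  · intro h
    have : a * b * a⁻¹ * b⁻¹ = (a * b) * (b * a)⁻¹ := by group
    rw [this, h, mul_inv_cancel]

theorem mem_center_of_comm (hZ : ∀ c ∈ commutator G, ∀ g : G, g * c = c * g) (a b : G) :
    ⁅a, b⁆ ∈ Subgroup.center G :=
  Subgroup.mem_center_iff.2 (hZ _ (comm_mem a b))

theorem mem_ker_comHom (hZ : ∀ c ∈ commutator G, ∀ g : G, g * c = c * g) (x h : G) :
    h ∈ (comHom hZ x).ker ↔ h * x = x * h := by
  rw [MonoidHom.mem_ker, comHom_apply, comm_eq_one_iff]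

theorem center_le_ker (hZ : ∀ c ∈ commutator G, ∀ g : G, g * c = c * g) (x : G) :
    Subgroup.center G ≤ (comHom hZ x).ker := by
  intro z hz
  rw [mem_ker_comHom]
  exact (Subgroup.mem_center_iff.1 hz x).symm

/-- for non-central `x`, every element of `G'` is a commutator `⁅h, x⁆` -/
theorem exists_comm_eq [Finite G] (p : ℕ) (hp : p.Prime) (hcard : Nat.card (commutator G) = p)
    (hZ : ∀ c ∈ commutator G, ∀ g : G, g * c = c * g) (x : G) (hx : x ∉ Subgroup.center G) :
    (comHom hZ x).range = commutator G := by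
  have hle : (comHom hZ x).range ≤ commutator G := by
    rintro _ ⟨h, rfl⟩
    exact comm_mem h x
  apply Subgroup.eq_of_le_of_card_ge hle
  have hne : (comHom hZ x).range ≠ ⊥ := by
    intro hbot
    apply hx
    rw [Subgroup.mem_center_iff]
    intro g
    have : comHom hZ x g ∈ (comHom hZ x).range := ⟨g, rfl⟩
    rw [hbot, Subgroup.mem_bot, comHom_apply, comm_eq_one_iff] at this
    exact this
  have h1 : Nat.card (comHom hZ x).range ∣ p := by
    rw [← hcard]; exact Subgroup.card_dvd_of_le hle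
  have h2 : Nat.card (comHom hZ x).range ≠ 1 := fun h => hne (Subgroup.card_eq_one.1 h)
  rw [hcard]
  rcases (Nat.dvd_prime hp).1 h1 with h | h
  · exact absurd h h2
  · exact h.ge

theorem card_ker_mul [Finite G] (p : ℕ) (hp : p.Prime) (hcard : Nat.card (commutator G) = p)
    (hZ : ∀ c ∈ commutator G, ∀ g : G, g * c = c * g) (x : G) (hx : x ∉ Subgroup.center G) :
    Nat.card (comHom hZ x).ker * p = Nat.card G := by
  rw [← Subgroup.card_mul_index (comHom hZ x).ker, Subgroup.index_ker,
    exists_comm_eq p hp hcard hZ x hx, hcard]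

end class2

section count
variable {G : Type u} [Group G] [Finite G]

/-- the weighted orbit count: a class-fusing automorphism forces at most `|G|/p` orbits -/
theorem orbit_count (p : ℕ) (hp : p.Prime)
    (hcard : Nat.card (commutator G) = p)
    (hZ : ∀ c ∈ commutator G, ∀ g : G, g * c = c * g)
    (hzp : Nat.card (Subgroup.center G) * p ^ 2 ≤ Nat.card G)
    (M : Subgroup G) (hZM : Subgroup.center G ≤ M) (hM : Nat.card M * p = Nat.card G)
    (α : MulAut G) (hα : ∀ g : G, g ∉ M → α g * g⁻¹ ∉ commutator G) :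
    Nat.card (MulAction.orbitRel.Quotient (MulAut G) G) * p ≤ Nat.card G := by
  classical
  haveI := Fintype.ofFinite G
  haveI : Fintype (MulAction.orbitRel.Quotient (MulAut G) G) := Fintype.ofFinite _
  haveI : Fintype (commutator G) := Fintype.ofFinite _
  have hcomZ : ∀ c ∈ commutator G, c ∈ Subgroup.center G := fun c hc =>
    Subgroup.mem_center_iff.2 (hZ c hc)
  have hconj : ∀ g : G, g ∉ Subgroup.center G → ∀ c ∈ commutator G,
      ∃ h : G, h * g * h⁻¹ = c * g := by
    intro g hg c hc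
    have hr := exists_comm_eq p hp hcard hZ g hg
    rw [← hr] at hc
    obtain ⟨h, hh⟩ := hc
    refine ⟨h, ?_⟩
    rw [← hh, comHom_apply, commutatorElement_def]
    group
  have horb : ∀ g : G, g ∉ Subgroup.center G → ∀ c ∈ commutator G,
      (Quotient.mk'' (c * g) : MulAction.orbitRel.Quotient (MulAut G) G) = Quotient.mk'' g := by
    intro g hg c hc
    obtain ⟨h, hh⟩ := hconj g hg c hc
    apply Quotient.sound'
    show c * g ∈ MulAction.orbit (MulAut G) g
    refine ⟨MulAut.conj h, ?_⟩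
    show (MulAut.conj h) g = c * g
    rw [MulAut.conj_apply, hh]
  have horbα : ∀ g : G,
      (Quotient.mk'' (α g) : MulAction.orbitRel.Quotient (MulAut G) G) = Quotient.mk'' g := by
    intro g
    apply Quotient.sound'
    show α g ∈ MulAction.orbit (MulAut G) g
    exact ⟨α, rfl⟩
  have hαZ : ∀ g : G, α g ∈ Subgroup.center G → g ∈ Subgroup.center G := by
    intro g hg
    rw [Subgroup.mem_center_iff] at hg ⊢
    intro y
    apply α.injective
    rw [map_mul, map_mul]
    exact hg (α y)
  have hp2 := hp.two_le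
  let F : G → ℕ := fun g =>
    1 + (if g ∈ M then 1 else 0) + (if g ∈ Subgroup.center G then 2 * (p - 1) else 0)
  have hF1 : ∀ g, 1 ≤ F g := fun g => by simp only [F]; omega
  have hF2 : ∀ g, g ∈ M → 2 ≤ F g := fun g hg => by simp only [F, if_pos hg]; omega
  have hF3 : ∀ g, g ∈ Subgroup.center G → F g = 2 * p := fun g hg => by
    simp only [F, if_pos hg, if_pos (hZM hg)]; omega
  have htotal : ∑ g : G, F g =
      Nat.card G + Nat.card M + Nat.card (Subgroup.center G) * (2 * (p - 1)) := by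
    simp only [F, Finset.sum_add_distrib]
    congr 1
    · congr 1
      · simp [Nat.card_eq_fintype_card]
      · rw [Finset.sum_boole, Nat.card_eq_fintype_card, Fintype.card_subtype]
        simp
    · rw [Finset.sum_ite, Finset.sum_const, Finset.sum_const_zero, add_zero, smul_eq_mul,
        Nat.card_eq_fintype_card, Fintype.card_subtype]
  have hfib : ∀ q : MulAction.orbitRel.Quotient (MulAut G) G,
      2 * p ≤ ∑ g ∈ Finset.univ.filter (fun g : G =>
        (Quotient.mk'' g : MulAction.orbitRel.Quotient (MulAut G) G) = q), F g := by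
    intro q
    induction q using Quotient.inductionOn' with
    | h g =>
    by_cases hgZ : g ∈ Subgroup.center G
    · calc 2 * p = F g := (hF3 g hgZ).symm
        _ ≤ _ := Finset.single_le_sum (f := F) (fun _ _ => Nat.zero_le _) (by simp)
    · obtain ⟨S, hS⟩ : ∃ S : Finset G,
          S = Finset.univ.image (fun c : commutator G => (c : G) * g) := ⟨_, rfl⟩
      have hScard : S.card = p := by
        rw [hS, Finset.card_image_of_injective _
          (fun c c' h => Subtype.ext (mul_right_cancel h)), Finset.card_univ,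
          ← Nat.card_eq_fintype_card, hcard]
      have hSfib : S ⊆ Finset.univ.filter (fun y : G =>
          (Quotient.mk'' y : MulAction.orbitRel.Quotient (MulAut G) G) = Quotient.mk'' g) := by
        intro y hy
        rw [hS] at hy
        obtain ⟨c, -, rfl⟩ := Finset.mem_image.1 hy
        simp only [Finset.mem_filter, Finset.mem_univ, true_and]
        exact horb g hgZ c c.2
      by_cases hgM : g ∈ M
      · have h2 : ∀ y ∈ S, 2 ≤ F y := by
          intro y hy
          rw [hS] at hy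
          obtain ⟨c, -, rfl⟩ := Finset.mem_image.1 hy
          exact hF2 _ (M.mul_mem (hZM (hcomZ c c.2)) hgM)
        calc 2 * p = ∑ y ∈ S, 2 := by rw [Finset.sum_const, hScard, smul_eq_mul, mul_comm]
          _ ≤ ∑ y ∈ S, F y := Finset.sum_le_sum h2
          _ ≤ _ := Finset.sum_le_sum_of_subset hSfib
      · obtain ⟨S', hS'⟩ : ∃ S' : Finset G,
            S' = Finset.univ.image (fun c : commutator G => (c : G) * α g) := ⟨_, rfl⟩
        have hS'card : S'.card = p := by
          rw [hS', Finset.card_image_of_injective _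
            (fun c c' h => Subtype.ext (mul_right_cancel h)), Finset.card_univ,
            ← Nat.card_eq_fintype_card, hcard]
        have hαgZ : α g ∉ Subgroup.center G := fun h => hgZ (hαZ g h)
        have hS'fib : S' ⊆ Finset.univ.filter (fun y : G =>
            (Quotient.mk'' y : MulAction.orbitRel.Quotient (MulAut G) G) = Quotient.mk'' g) := by
          intro y hy
          rw [hS'] at hy
          obtain ⟨c, -, rfl⟩ := Finset.mem_image.1 hy
          simp only [Finset.mem_filter, Finset.mem_univ, true_and]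
          rw [horb (α g) hαgZ c c.2]
          exact horbα g
        have hdisj : Disjoint S S' := by
          rw [Finset.disjoint_left]
          intro y hy hy'
          rw [hS] at hy
          rw [hS'] at hy'
          obtain ⟨c, -, rfl⟩ := Finset.mem_image.1 hy
          obtain ⟨c', -, hc'⟩ := Finset.mem_image.1 hy'
          apply hα g hgM
          have : α g * g⁻¹ = (c' : G)⁻¹ * c := by
            have h1 : α g = (c' : G)⁻¹ * ((c : G) * g) := by rw [← hc']; group
            rw [h1]; group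
          rw [this]
          exact (commutator G).mul_mem ((commutator G).inv_mem c'.2) c.2
        calc 2 * p = (S ∪ S').card := by
              rw [Finset.card_union_of_disjoint hdisj, hScard, hS'card]; ring
          _ = ∑ y ∈ S ∪ S', 1 := by simp
          _ ≤ ∑ y ∈ S ∪ S', F y := Finset.sum_le_sum (fun y _ => hF1 y)
          _ ≤ _ := Finset.sum_le_sum_of_subset (Finset.union_subset hSfib hS'fib)
  have h1 : Nat.card (MulAction.orbitRel.Quotient (MulAut G) G) * (2 * p) ≤ ∑ g : G, F g := by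
    rw [← Finset.sum_fiberwise (Finset.univ : Finset G)
      (fun g => (Quotient.mk'' g : MulAction.orbitRel.Quotient (MulAut G) G)) F]
    calc Nat.card (MulAction.orbitRel.Quotient (MulAut G) G) * (2 * p)
        = ∑ _q : MulAction.orbitRel.Quotient (MulAut G) G, 2 * p := by
          rw [Finset.sum_const, Finset.card_univ, Nat.card_eq_fintype_card, smul_eq_mul]
      _ ≤ _ := Finset.sum_le_sum (fun q _ => hfib q)
  rw [htotal] at h1
  obtain ⟨q, rfl⟩ : ∃ q, p = q + 1 := ⟨p - 1, by omega⟩
  obtain ⟨z, hz⟩ : ∃ z : ℕ, z = Nat.card (Subgroup.center G) := ⟨_, rfl⟩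
  obtain ⟨m, hm⟩ : ∃ m : ℕ, m = Nat.card M := ⟨_, rfl⟩
  obtain ⟨n, hn⟩ : ∃ n : ℕ, n = Nat.card G := ⟨_, rfl⟩
  obtain ⟨w, hw⟩ : ∃ w : ℕ, w = Nat.card (MulAction.orbitRel.Quotient (MulAut G) G) := ⟨_, rfl⟩
  rw [← hz, ← hn] at hzp
  rw [← hm, ← hn] at hM
  rw [← hz, ← hm, ← hn, ← hw] at h1
  rw [← hn, ← hw]
  have hq1 : 1 ≤ q := by omega
  have h2 : z * (q + 1) ≤ m := by
    have : z * (q + 1) * (q + 1) ≤ m * (q + 1) := by rw [hM, mul_assoc, ← pow_two]; exact hzp
    exact Nat.le_of_mul_le_mul_right this (by omega)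
  have h3 : 2 * z ≤ m := by nlinarith
  have h4 : q + 1 - 1 = q := by omega
  rw [h4] at h1
  nlinarith

end count

section auts
variable {G : Type u} [Group G] [Finite G]

/-- an automorphism `g ↦ g · s(g) · ⁅g, s g⁆ ^ h` of a class two group -/
theorem aut_of_hom (hZ : ∀ c ∈ commutator G, ∀ g : G, g * c = c * g)
    (s : G →* G) (h : ℕ)
    (hsym : ∀ g g' : G, ⁅g, s g'⁆ = ⁅g', s g⁆)
    (hpow : ∀ g g' : G, ⁅g, s g'⁆ ^ (2 * h + 1) = 1)
    (hinj : ∀ g : G, g * s g * ⁅g, s g⁆ ^ h = 1 → g = 1) :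
    ∃ α : MulAut G, ∀ g, α g = g * s g * ⁅g, s g⁆ ^ h := by
  have hmul : ∀ a b : G, (a * b) * s (a * b) * ⁅a * b, s (a * b)⁆ ^ h =
      (a * s a * ⁅a, s a⁆ ^ h) * (b * s b * ⁅b, s b⁆ ^ h) := by
    intro a b
    obtain ⟨u, hu⟩ : ∃ u, u = ⁅a, s a⁆ := ⟨_, rfl⟩
    obtain ⟨v, hv⟩ : ∃ v, v = ⁅b, s b⁆ := ⟨_, rfl⟩
    obtain ⟨w, hw⟩ : ∃ w, w = ⁅a, s b⁆ := ⟨_, rfl⟩
    have hwb : ⁅b, s a⁆ = w := by rw [hw]; exact hsym b a
    have hcu : ∀ g : G, g * u = u * g := by rw [hu]; exact hZ _ (comm_mem _ _)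
    have hcv : ∀ g : G, g * v = v * g := by rw [hv]; exact hZ _ (comm_mem _ _)
    have hcw : ∀ g : G, g * w = w * g := by rw [hw]; exact hZ _ (comm_mem _ _)
    have e2 : ⁅a * b, s (a * b)⁆ = u * v * w ^ 2 := by
      rw [map_mul, comm_mul_left hZ, comm_mul_right hZ, comm_mul_right hZ, ← hu, ← hw, hwb, ← hv,
        pow_two]
      rw [mul_assoc u w, ← hcw (w * v), hcv w, mul_assoc v w w, ← mul_assoc u v]
    have e1 : s a * b = w⁻¹ * (b * s a) := by
      rw [← hwb, commutatorElement_def]; group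
    have hw1 : w ^ (2 * h) = w⁻¹ := by
      have := hpow a b
      rw [← hw, pow_succ] at this
      exact eq_inv_of_mul_eq_one_left this
    have hpw : (u * v * w ^ 2) ^ h = u ^ h * v ^ h * w⁻¹ := by
      have c1 : Commute (u * v) (w ^ 2) := Commute.pow_right (hcw (u * v)) 2
      have c2 : Commute u v := hcv u
      rw [c1.mul_pow, c2.mul_pow, ← pow_mul, hw1]
    have hcU : ∀ g : G, g * u ^ h = u ^ h * g := fun g =>
      ((show Commute g u from hcu g).pow_right h).eq
    have hcV : ∀ g : G, g * v ^ h = v ^ h * g := fun g =>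
      ((show Commute g v from hcv g).pow_right h).eq
    have hcWi : ∀ g : G, g * w⁻¹ = w⁻¹ * g := fun g =>
      ((show Commute g w from hcw g).inv_right).eq
    rw [e2, ← hu, ← hv, map_mul s a b, hpw]
    obtain ⟨U, hU⟩ : ∃ U, U = u ^ h := ⟨_, rfl⟩
    obtain ⟨V, hV⟩ : ∃ V, V = v ^ h := ⟨_, rfl⟩
    obtain ⟨Wi, hWi⟩ : ∃ Wi, Wi = w⁻¹ := ⟨_, rfl⟩
    rw [← hU] at hcU
    rw [← hV] at hcV
    rw [← hWi] at hcWi e1
    rw [← hU, ← hV, ← hWi]
    symm
    calc a * s a * U * (b * s b * V)
        = a * s a * ((b * s b * V) * U) := by rw [mul_assoc (a * s a) U, ← hcU (b * s b * V)]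
      _ = a * (s a * b) * s b * (V * U) := by simp only [mul_assoc]
      _ = a * (Wi * (b * s a)) * s b * (V * U) := by rw [e1]
      _ = a * ((b * s a) * Wi) * s b * (V * U) := by rw [hcWi (b * s a)]
      _ = a * (b * s a) * (Wi * s b) * (V * U) := by simp only [mul_assoc]
      _ = a * (b * s a) * (s b * Wi) * (V * U) := by rw [hcWi (s b)]
      _ = a * b * (s a * s b) * (Wi * (V * U)) := by simp only [mul_assoc]
      _ = a * b * (s a * s b) * (U * V * Wi) := by rw [← hcWi (V * U), hcU V]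
  let f : G →* G := MonoidHom.mk' (fun g => g * s g * ⁅g, s g⁆ ^ h) hmul
  have hfinj : Function.Injective f := (injective_iff_map_eq_one f).2 hinj
  have hfbij : Function.Bijective f := Finite.injective_iff_bijective.1 hfinj
  exact ⟨MulEquiv.ofBijective f hfbij, fun g => rfl⟩

/-- central and transvection-type class-fusing automorphisms -/
theorem exists_aut_AB (p : ℕ) (hp : p.Prime) (hcard : Nat.card (commutator G) = p)
    (hZ : ∀ c ∈ commutator G, ∀ g : G, g * c = c * g)
    (x w : G) (hx : x ∉ Subgroup.center G) (hwG : w ∉ commutator G) (hwp : w ^ p = 1)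
    (hw : w ∈ Subgroup.center G ∨ (w = x ∧ ∃ h : ℕ, p = 2 * h + 1)) :
    ∃ α : MulAut G, ∀ g : G, g ∉ (comHom hZ x).ker → α g * g⁻¹ ∉ commutator G := by
  haveI : Fact p.Prime := ⟨hp⟩
  obtain ⟨y0, hy0⟩ : ∃ y0 : G, ⁅y0, x⁆ ≠ 1 := by
    by_contra hall
    apply hx
    rw [Subgroup.mem_center_iff]
    intro g
    have : ⁅g, x⁆ = 1 := by by_contra h; exact hall ⟨g, h⟩
    exact (comm_eq_one_iff g x).1 this
  let c0 : commutator G := ⟨⁅y0, x⁆, comm_mem y0 x⟩
  have hc0 : c0 ≠ 1 := fun h => hy0 (congrArg Subtype.val h)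
  have hgen : ∀ c : commutator G, c ∈ Subgroup.zpowers c0 := fun c =>
    mem_zpowers_of_prime_card hcard hc0
  have hord : orderOf w ∣ orderOf c0 := by
    have : orderOf c0 = p := by rw [orderOf_eq_card_of_forall_mem_zpowers hgen, hcard]
    rw [this]; exact orderOf_dvd_of_pow_eq_one hwp
  let ψ : commutator G →* G := monoidHomOfForallMemZpowers hgen hord
  have hψ : ψ c0 = w := monoidHomOfForallMemZpowers_apply_gen hgen hord
  let β : G →* commutator G := (comHom hZ x).codRestrict (commutator G) (fun g => comm_mem g x)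
  have hβ : ∀ g, (β g : G) = ⁅g, x⁆ := fun g => rfl
  let s : G →* G := ψ.comp β
  have hs : ∀ g, s g = ψ (β g) := fun g => rfl
  have P1 : ∀ g : G, ∃ j : ℤ, ⁅g, x⁆ = ⁅y0, x⁆ ^ j ∧ s g = w ^ j := by
    intro g
    obtain ⟨j, hj⟩ := Subgroup.mem_zpowers_iff.1 (hgen (β g))
    refine ⟨j, ?_, ?_⟩
    · have := congrArg Subtype.val hj
      rw [Subgroup.coe_zpow] at this
      exact this.symm
    · rw [hs, ← hj, map_zpow, hψ]
  have P2 : ∀ g : G, s g ∈ commutator G → g ∈ (comHom hZ x).ker := by
    intro g hg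
    have hK : (commutator G).comap ψ = ⊥ := by
      haveI : Fact (Nat.card (commutator G)).Prime := by rw [hcard]; exact ⟨hp⟩
      rcases Subgroup.eq_bot_or_eq_top_of_prime_card ((commutator G).comap ψ) with h | h
      · exact h
      · exfalso
        apply hwG
        have : c0 ∈ (commutator G).comap ψ := by rw [h]; trivial
        rw [Subgroup.mem_comap, hψ] at this
        exact this
    have h1 : β g ∈ (commutator G).comap ψ := hg
    rw [hK, Subgroup.mem_bot] at h1
    rw [MonoidHom.mem_ker, comHom_apply]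
    exact congrArg Subtype.val h1
  have hwx : ⁅w, x⁆ = 1 := by
    rcases hw with hw | ⟨hw, -⟩
    · rw [comm_eq_one_iff]; exact (Subgroup.mem_center_iff.1 hw x).symm
    · rw [hw, comm_eq_one_iff]
  obtain ⟨h, hh⟩ : ∃ h : ℕ, (w ∈ Subgroup.center G ∧ h = 0) ∨ (w = x ∧ p = 2 * h + 1) := by
    rcases hw with hw | ⟨hw, h, hh⟩
    · exact ⟨0, Or.inl ⟨hw, rfl⟩⟩
    · exact ⟨h, Or.inr ⟨hw, hh⟩⟩
  have hcen : w ∈ Subgroup.center G → ∀ g g' : G, ⁅g, s g'⁆ = 1 := by
    intro hwZ g g'
    obtain ⟨j, -, hj2⟩ := P1 g'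
    rw [hj2, comm_zpow_right hZ, (comm_eq_one_iff g w).2 (Subgroup.mem_center_iff.1 hwZ g),
      one_zpow]
  have hsym : ∀ g g' : G, ⁅g, s g'⁆ = ⁅g', s g⁆ := by
    intro g g'
    rcases hh with ⟨hwZ, -⟩ | ⟨hwx', -⟩
    · rw [hcen hwZ g g', hcen hwZ g' g]
    · obtain ⟨i, hi1, hi2⟩ := P1 g
      obtain ⟨j, hj1, hj2⟩ := P1 g'
      rw [hj2, hi2, hwx', comm_zpow_right hZ, comm_zpow_right hZ, hi1, hj1, ← zpow_mul,
        ← zpow_mul, mul_comm]
  have hpow : ∀ g g' : G, ⁅g, s g'⁆ ^ (2 * h + 1) = 1 := by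
    intro g g'
    rcases hh with ⟨hwZ, -⟩ | ⟨-, hph⟩
    · rw [hcen hwZ g g', one_pow]
    · rw [← hph]
      have := pow_card_eq_one' (G := commutator G) (x := ⟨⁅g, s g'⁆, comm_mem _ _⟩)
      rw [hcard] at this
      simpa using congrArg Subtype.val this
  have hinj : ∀ g : G, g * s g * ⁅g, s g⁆ ^ h = 1 → g = 1 := by
    intro g hg
    have h1 := congrArg (comHom hZ x) hg
    rw [map_mul, map_mul, map_pow, map_one, comHom_apply, comHom_apply, comHom_apply] at h1
    have h2 : ⁅s g, x⁆ = 1 := by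
      obtain ⟨j, -, hj2⟩ := P1 g
      rw [hj2, comm_zpow_left hZ, hwx, one_zpow]
    have h3 : ⁅⁅g, s g⁆, x⁆ = 1 := by
      rw [comm_eq_one_iff]; exact (hZ _ (comm_mem g (s g)) x).symm
    rw [h2, h3, one_pow, mul_one, mul_one] at h1
    have h4 : β g = 1 := Subtype.ext h1
    have h5 : s g = 1 := by rw [hs, h4, map_one]
    rw [h5] at hg
    simpa using hg
  obtain ⟨α, hα⟩ := aut_of_hom hZ s h hsym hpow hinj
  refine ⟨α, ?_⟩
  intro g hg hmem
  apply hg
  apply P2
  have h1 : s g = g⁻¹ * (α g * g⁻¹) * g * (⁅g, s g⁆ ^ h)⁻¹ := by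
    rw [hα g]; group
  rw [h1]
  refine (commutator G).mul_mem ?_ ((commutator G).inv_mem ((commutator G).pow_mem (comm_mem _ _) h))
  have hn : (commutator G).Normal := inferInstance
  have := hn.conj_mem _ hmem g⁻¹
  rwa [inv_inv] at this

/-- the class-fusing automorphism for `p = 2` built from a non-central `x` with `x² ∈ G'` -/
theorem exists_aut_C (hcard : Nat.card (commutator G) = 2)
    (hZ : ∀ c ∈ commutator G, ∀ g : G, g * c = c * g)
    (x : G) (hx2 : x ^ 2 ∈ commutator G) (hx21 : x ^ 2 ≠ 1) :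
    ∃ α : MulAut G, ∀ g : G, g ∉ (comHom hZ x).ker → α g * g⁻¹ ∉ commutator G := by
  classical
  have hG' : ∀ c ∈ commutator G, c = 1 ∨ c = x ^ 2 := by
    intro c hc
    by_cases h1 : c = 1
    · exact Or.inl h1
    · right
      obtain ⟨y, -, hy⟩ := (Nat.card_eq_two_iff' (1 : commutator G)).1 hcard
      have e1 : (⟨c, hc⟩ : commutator G) = y := hy _ (fun h => h1 (congrArg Subtype.val h))
      have e2 : (⟨x ^ 2, hx2⟩ : commutator G) = y := hy _ (fun h => hx21 (congrArg Subtype.val h))
      exact congrArg Subtype.val (e1.trans e2.symm)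
  have hx4 : x ^ 4 = 1 := by
    have := pow_card_eq_one' (G := commutator G) (x := ⟨x ^ 2, hx2⟩)
    rw [hcard] at this
    have h2 : (x ^ 2) ^ 2 = 1 := by simpa using congrArg Subtype.val this
    rw [← pow_mul] at h2
    exact h2
  have hx1 : x ≠ 1 := fun h => hx21 (by rw [h, one_pow])
  have hM : ∀ g, g ∈ (comHom hZ x).ker ↔ g * x = x * g := mem_ker_comHom hZ x
  have hout : ∀ g, g ∉ (comHom hZ x).ker → ⁅g, x⁆ = x ^ 2 := by
    intro g hg
    rcases hG' _ (comm_mem g x) with h | h
    · exact absurd (MonoidHom.mem_ker.2 h) hg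
    · exact h
  -- for `b ∉ M`: `x * (b * x) = b`
  have hxbx : ∀ b, b ∉ (comHom hZ x).ker → x * (b * x) = b := by
    intro b hb
    have h1 := hout b hb
    rw [commutatorElement_def] at h1
    have h2 : b * x = x ^ 2 * x * b := by
      rw [← h1]; group
    rw [h2]
    have h3 : x * (x ^ 2 * x * b) = x ^ 4 * b := by
      simp only [pow_succ, pow_zero, one_mul, mul_assoc]
    rw [h3, hx4, one_mul]
  let f : G → G := fun g => if g ∈ (comHom hZ x).ker then g else g * x
  have hmul : ∀ a b : G, f (a * b) = f a * f b := by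
    intro a b
    by_cases ha : a ∈ (comHom hZ x).ker
    · by_cases hb : b ∈ (comHom hZ x).ker
      · simp only [f, if_pos ha, if_pos hb, if_pos ((comHom hZ x).ker.mul_mem ha hb)]
      · have hab : a * b ∉ (comHom hZ x).ker := fun h =>
          hb (((comHom hZ x).ker.mul_mem_cancel_left ha).1 h)
        simp only [f, if_pos ha, if_neg hb, if_neg hab, mul_assoc]
    · by_cases hb : b ∈ (comHom hZ x).ker
      · have hab : a * b ∉ (comHom hZ x).ker := fun h =>
          ha (((comHom hZ x).ker.mul_mem_cancel_right hb).1 h)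
        simp only [f, if_neg ha, if_pos hb, if_neg hab, mul_assoc]
        rw [(hM b).1 hb]
      · have hab : a * b ∈ (comHom hZ x).ker := by
          rw [MonoidHom.mem_ker, map_mul, comHom_apply, comHom_apply, hout a ha, hout b hb,
            ← pow_add]
          exact hx4
        simp only [f, if_neg ha, if_neg hb, if_pos hab]
        rw [mul_assoc a x, hxbx b hb]
  let F : G →* G := MonoidHom.mk' f hmul
  have hFinj : Function.Injective F := by
    rw [injective_iff_map_eq_one]
    intro g hg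
    have hg' : f g = 1 := hg
    by_cases hgM : g ∈ (comHom hZ x).ker
    · simpa only [f, if_pos hgM] using hg'
    · exfalso
      simp only [f, if_neg hgM] at hg'
      apply hgM
      rw [hM]
      have : g = x⁻¹ := eq_inv_of_mul_eq_one_left hg'
      rw [this]; group
  have hFbij : Function.Bijective F := Finite.injective_iff_bijective.1 hFinj
  refine ⟨MulEquiv.ofBijective F hFbij, ?_⟩
  intro g hg hmem
  have h1 : (MulEquiv.ofBijective F hFbij) g = g * x := by
    show f g = g * x
    simp only [f, if_neg hg]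
  rw [h1] at hmem
  have h2 : g * x * g⁻¹ = x ^ 2 * x := by
    rw [← hout g hg, commutatorElement_def]; group
  rw [h2] at hmem
  rcases hG' _ hmem with h | h
  · apply hx1
    have h3 : x ^ 4 = x ^ 2 * x * x := by simp only [pow_succ, pow_zero, one_mul, mul_assoc]
    rw [h, one_mul] at h3
    rw [← h3]; exact hx4
  · apply hx1
    have h3 : x ^ 2 * x = x ^ 2 * 1 := by rw [mul_one]; exact h
    exact mul_left_cancel h3

end auts

section exist
variable {G : Type u} [Group G] [Finite G]

/-- for `p` odd there is an element of order dividing `p` outside `G'` -/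
theorem exists_w_odd (p h : ℕ) (hp : p.Prime) (hph : p = 2 * h + 1)
    (hcard : Nat.card (commutator G) = p)
    (hZ : ∀ c ∈ commutator G, ∀ g : G, g * c = c * g)
    (hzp : Nat.card (Subgroup.center G) * p ^ 2 ≤ Nat.card G) :
    ∃ w : G, w ^ p = 1 ∧ w ∉ commutator G := by
  by_contra hcon
  have hall : ∀ w : G, w ^ p = 1 → w ∈ commutator G := by
    intro w hw
    by_contra hn
    exact hcon ⟨w, hw, hn⟩
  have hcp : ∀ c ∈ commutator G, c ^ p = 1 := by
    intro c hc
    have := pow_card_eq_one' (G := commutator G) (x := ⟨c, hc⟩)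
    rw [hcard] at this
    simpa using congrArg Subtype.val this
  have hpowmul : ∀ (a b : G) (k : ℕ),
      (a * b) ^ k = a ^ k * b ^ k * ⁅b, a⁆ ^ (∑ i ∈ Finset.range k, i) := by
    intro a b k
    induction k with
    | zero => simp
    | succ k ih =>
      rw [pow_succ, ih, Finset.sum_range_succ, pow_add ⁅b, a⁆]
      have hc : ∀ g : G, g * ⁅b, a⁆ = ⁅b, a⁆ * g := hZ _ (comm_mem b a)
      have e1 : b ^ k * a = ⁅b, a⁆ ^ k * (a * b ^ k) := by
        rw [← comm_pow_left hZ, commutatorElement_def]; group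
      obtain ⟨C1, hC1⟩ : ∃ C1, C1 = ⁅b, a⁆ ^ (∑ i ∈ Finset.range k, i) := ⟨_, rfl⟩
      obtain ⟨C2, hC2⟩ : ∃ C2, C2 = ⁅b, a⁆ ^ k := ⟨_, rfl⟩
      have hc1 : ∀ g : G, g * C1 = C1 * g := fun g => by
        rw [hC1]; exact ((show Commute g ⁅b, a⁆ from hc g).pow_right _).eq
      have hc2 : ∀ g : G, g * C2 = C2 * g := fun g => by
        rw [hC2]; exact ((show Commute g ⁅b, a⁆ from hc g).pow_right _).eq
      rw [← hC2] at e1
      rw [← hC1, ← hC2]
      calc a ^ k * b ^ k * C1 * (a * b)
          = a ^ k * b ^ k * ((a * b) * C1) := by rw [mul_assoc (a ^ k * b ^ k) C1, ← hc1 (a * b)]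
        _ = a ^ k * (b ^ k * a) * b * C1 := by simp only [mul_assoc]
        _ = a ^ k * (C2 * (a * b ^ k)) * b * C1 := by rw [e1]
        _ = a ^ k * ((a * b ^ k) * C2) * b * C1 := by rw [hc2 (a * b ^ k)]
        _ = a ^ k * a * b ^ k * (C2 * b) * C1 := by simp only [mul_assoc]
        _ = a ^ k * a * b ^ k * (b * C2) * C1 := by rw [hc2 b]
        _ = a ^ k * a * (b ^ k * b) * (C2 * C1) := by simp only [mul_assoc]
        _ = a ^ (k + 1) * b ^ (k + 1) * (C1 * C2) := by rw [← pow_succ, ← pow_succ, hc1 C2]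
  have hT : ∑ i ∈ Finset.range p, i = p * h := by
    have h1 := Finset.sum_range_id_mul_two p
    have h2 : p * (p - 1) = p * h * 2 := by
      rw [hph]
      have : 2 * h + 1 - 1 = 2 * h := by omega
      rw [this]; ring
    rw [h2] at h1
    exact Nat.eq_of_mul_eq_mul_right (by norm_num) h1
  have hpmul : ∀ a b : G, (a * b) ^ p = a ^ p * b ^ p := by
    intro a b
    rw [hpowmul a b p, hT, pow_mul, hcp _ (comm_mem b a), one_pow, mul_one]
  let π : G →* G := MonoidHom.mk' (fun g => g ^ p) hpmul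
  have hker : π.ker ≤ commutator G := fun g hg => hall g hg
  have hrange : π.range ≤ Subgroup.center G := by
    rintro _ ⟨g, rfl⟩
    rw [Subgroup.mem_center_iff]
    intro y
    show y * g ^ p = g ^ p * y
    rw [← comm_eq_one_iff, comm_pow_right hZ, hcp _ (comm_mem y g)]
  have h1 : Nat.card π.ker ≤ p := by rw [← hcard]; exact Subgroup.card_le_of_le hker
  have h2 : Nat.card π.range ≤ Nat.card (Subgroup.center G) := Subgroup.card_le_of_le hrange
  have h3 : Nat.card π.ker * Nat.card π.range = Nat.card G := by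
    rw [← Subgroup.index_ker]; exact Subgroup.card_mul_index _
  have hzpos : 0 < Nat.card (Subgroup.center G) := Nat.card_pos
  have hp2 := hp.two_le
  have h4 : Nat.card G ≤ p * Nat.card (Subgroup.center G) := by
    rw [← h3]; exact Nat.mul_le_mul h1 h2
  nlinarith

/-- for `p = 2`, if every central involution lies in `G'`, some non-central `x` has
`x² ∈ G' ∖ 1` -/
theorem exists_x_two (hcard : Nat.card (commutator G) = 2)
    (hZ : ∀ c ∈ commutator G, ∀ g : G, g * c = c * g)
    (a b : G) (hab : a * b ≠ b * a)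
    (hH : ∀ w ∈ Subgroup.center G, w ^ 2 = 1 → w ∈ commutator G) :
    ∃ x : G, x ∉ Subgroup.center G ∧ x ^ 2 ∈ commutator G ∧ x ^ 2 ≠ 1 := by
  obtain ⟨c, hc⟩ : ∃ c : G, c = ⁅b, a⁆ := ⟨_, rfl⟩
  have hcG : c ∈ commutator G := by rw [hc]; exact comm_mem b a
  have hc1 : c ≠ 1 := by
    rw [hc]
    intro h
    exact hab ((comm_eq_one_iff b a).1 h).symm
  have hsq : ∀ d ∈ commutator G, d ^ 2 = 1 := by
    intro d hd
    have := pow_card_eq_one' (G := commutator G) (x := ⟨d, hd⟩)
    rw [hcard] at this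
    simpa using congrArg Subtype.val this
  have hc2 : c ^ 2 = 1 := hsq c hcG
  have hcZ : c ∈ Subgroup.center G := Subgroup.mem_center_iff.2 (hZ c hcG)
  have hsqZ : ∀ u : G, u ^ 2 ∈ Subgroup.center G := by
    intro u
    rw [Subgroup.mem_center_iff]
    intro y
    rw [← comm_eq_one_iff, comm_pow_right hZ, hsq _ (comm_mem y u)]
  have habsq : (a * b) ^ 2 = c * a ^ 2 * b ^ 2 := by
    have e1 : b * a = c * (a * b) := by rw [hc, commutatorElement_def]; group
    calc (a * b) ^ 2 = a * (b * a) * b := by rw [pow_two]; simp only [mul_assoc]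
      _ = a * (c * (a * b)) * b := by rw [e1]
      _ = a * ((a * b) * c) * b := by rw [hZ c hcG (a * b)]
      _ = a * a * b * (c * b) := by simp only [mul_assoc]
      _ = a * a * b * (b * c) := by rw [hZ c hcG b]
      _ = (a ^ 2 * b ^ 2) * c := by rw [pow_two, pow_two]; simp only [mul_assoc]
      _ = c * a ^ 2 * b ^ 2 := by rw [hZ c hcG (a ^ 2 * b ^ 2), mul_assoc]
  -- squares in the centre
  let sq : Subgroup.center G →* Subgroup.center G :=
    MonoidHom.mk' (fun ζ => ζ ^ 2) (fun x y => by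
      have hcomm : Commute x y := Subtype.ext (Subgroup.mem_center_iff.1 y.2 (x : G))
      exact hcomm.mul_pow 2)
  have hsq_apply : ∀ ζ : Subgroup.center G, ((sq ζ : Subgroup.center G) : G) = (ζ : G) ^ 2 :=
    fun ζ => rfl
  have hkercard : Nat.card sq.ker ≤ 2 := by
    rw [← hcard]
    apply Nat.card_le_card_of_injective
      (fun ζ : sq.ker => (⟨((ζ : Subgroup.center G) : G), hH _ (ζ : Subgroup.center G).2 (by
        have h1 : sq (ζ : Subgroup.center G) = 1 := ζ.2
        have h2 := congrArg Subtype.val h1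
        rw [hsq_apply] at h2
        exact h2)⟩ : commutator G))
    intro ζ ζ' h
    have h1 := congrArg Subtype.val h
    exact Subtype.ext (Subtype.ext h1)
  have hidx : sq.range.index ≤ 2 := by
    have e1 : Nat.card sq.ker * Nat.card sq.range = Nat.card (Subgroup.center G) := by
      rw [← Subgroup.index_ker]; exact Subgroup.card_mul_index _
    have e2 : Nat.card sq.range * sq.range.index = Nat.card (Subgroup.center G) :=
      Subgroup.card_mul_index _
    have hpos : 0 < Nat.card sq.range := Nat.card_pos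
    have e3 : sq.range.index = Nat.card sq.ker := by
      have : Nat.card sq.range * sq.range.index = Nat.card sq.range * Nat.card sq.ker := by
        rw [e2, ← e1, mul_comm]
      exact Nat.eq_of_mul_eq_mul_left hpos this
    rw [e3]; exact hkercard
  -- the key claim
  have key : ∃ u : G, u ∉ Subgroup.center G ∧ ∃ ζ : Subgroup.center G,
      u ^ 2 = c * (ζ : G) ^ 2 := by
    have haZ : a ∉ Subgroup.center G := fun h => hab ((Subgroup.mem_center_iff.1 h b).symm)
    have hbZ : b ∉ Subgroup.center G := fun h => hab (Subgroup.mem_center_iff.1 h a)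
    have hcinv : c⁻¹ = c := by
      rw [inv_eq_iff_mul_eq_one, ← pow_two]; exact hc2
    let A : Subgroup.center G := ⟨a ^ 2, hsqZ a⟩
    let B : Subgroup.center G := ⟨b ^ 2, hsqZ b⟩
    let C : Subgroup.center G := ⟨c, hcZ⟩
    by_cases hA : A * C ∈ sq.range
    · obtain ⟨ζ, hζ⟩ := hA
      refine ⟨a, haZ, ζ, ?_⟩
      have h1 : (ζ : G) ^ 2 = a ^ 2 * c := by
        have := congrArg Subtype.val hζ
        rw [hsq_apply] at this
        exact this
      rw [h1]
      calc a ^ 2 = a ^ 2 * (c * c) := by rw [← pow_two, hc2, mul_one]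
        _ = c * (a ^ 2 * c) := by rw [← hZ c hcG (a ^ 2 * c), mul_assoc]
    · by_cases hB : B * C ∈ sq.range
      · obtain ⟨ζ, hζ⟩ := hB
        refine ⟨b, hbZ, ζ, ?_⟩
        have h1 : (ζ : G) ^ 2 = b ^ 2 * c := by
          have := congrArg Subtype.val hζ
          rw [hsq_apply] at this
          exact this
        rw [h1]
        calc b ^ 2 = b ^ 2 * (c * c) := by rw [← pow_two, hc2, mul_one]
          _ = c * (b ^ 2 * c) := by rw [← hZ c hcG (b ^ 2 * c), mul_assoc]
      · have hidx2 : sq.range.index = 2 := by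
          have h0 : sq.range.index ≠ 0 := Subgroup.index_ne_zero_of_finite
          have h1 : sq.range.index ≠ 1 := by
            intro h
            rw [Subgroup.index_eq_one] at h
            apply hA
            rw [h]; trivial
          omega
        have hAB : (A * C) * (B * C) ∈ sq.range :=
          (Subgroup.mul_mem_iff_of_index_two hidx2).2 ⟨fun h => absurd h hA, fun h => absurd h hB⟩
        obtain ⟨ζ, hζ⟩ := hAB
        have habZ : a * b ∉ Subgroup.center G := by
          intro h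
          apply hab
          have h1 := Subgroup.mem_center_iff.1 h a
          -- a * (a * b) = a * b * a
          have h2 : a * (a * b) = a * (b * a) := by rw [h1]; simp only [mul_assoc]
          exact mul_left_cancel h2
        refine ⟨a * b, habZ, ζ, ?_⟩
        have h1 : (ζ : G) ^ 2 = (a ^ 2 * c) * (b ^ 2 * c) := by
          have := congrArg Subtype.val hζ
          rw [hsq_apply] at this
          exact this
        rw [habsq, h1]
        -- c * a^2 * b^2 = c * (a^2 * c * (b^2 * c))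
        have h2 : a ^ 2 * c * (b ^ 2 * c) = a ^ 2 * b ^ 2 := by
          calc a ^ 2 * c * (b ^ 2 * c) = a ^ 2 * (c * b ^ 2) * c := by simp only [mul_assoc]
            _ = a ^ 2 * (b ^ 2 * c) * c := by rw [hZ c hcG (b ^ 2)]
            _ = a ^ 2 * b ^ 2 * (c * c) := by simp only [mul_assoc]
            _ = a ^ 2 * b ^ 2 := by rw [← pow_two, hc2, mul_one]
        rw [h2, mul_assoc]
  obtain ⟨u, huZ, ζ, hζ⟩ := key
  have hζc : ∀ g : G, g * (ζ : G)⁻¹ = (ζ : G)⁻¹ * g := fun g =>
    ((show Commute g (ζ : G) from Subgroup.mem_center_iff.1 ζ.2 g).inv_right).eq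
  have hx2 : (u * (ζ : G)⁻¹) ^ 2 = c := by
    calc (u * (ζ : G)⁻¹) ^ 2 = u * ((ζ : G)⁻¹ * u) * (ζ : G)⁻¹ := by
          rw [pow_two]; simp only [mul_assoc]
      _ = u * (u * (ζ : G)⁻¹) * (ζ : G)⁻¹ := by rw [hζc u]
      _ = u ^ 2 * ((ζ : G) ^ 2)⁻¹ := by rw [pow_two, pow_two]; simp only [mul_assoc, mul_inv_rev]
      _ = c := by rw [hζ]; simp only [mul_assoc, mul_inv_cancel, mul_one]
  refine ⟨u * (ζ : G)⁻¹, ?_, ?_, ?_⟩
  · intro h
    apply huZ
    have : u = (u * (ζ : G)⁻¹) * ζ := by group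
    rw [this]
    exact (Subgroup.center G).mul_mem h ζ.2
  · rw [hx2]; exact hcG
  · rw [hx2]; exact hc1

end exist

section final
variable {G : Type u} [Group G] [Finite G]

/-- **Laffey–MacHale**: a non-abelian finite group has at most `|G|/p` automorphism orbits. -/
theorem main (hna : ¬ IsMulCommutative G) :
    Nat.card (MulAction.orbitRel.Quotient (MulAut G) G) ≤
      Nat.card G / (Nat.card G).minFac := by
  obtain ⟨a, b, hab⟩ : ∃ a b : G, a * b ≠ b * a := by
    by_contra hall
    apply hna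
    exact ⟨⟨fun a b => by
      by_contra h
      exact hall ⟨a, b, h⟩⟩⟩
  have hn1 : Nat.card G ≠ 1 := by
    intro h1
    haveI : Subsingleton G := (Nat.card_eq_one_iff_unique.1 h1).1
    exact hab (Subsingleton.elim _ _)
  have hpp : (Nat.card G).minFac.Prime := Nat.minFac_prime hn1
  rw [Nat.le_div_iff_mul_le hpp.pos]
  by_cases hk : Nat.card (ConjClasses G) * (Nat.card G).minFac ≤ Nat.card G
  · exact le_trans (Nat.mul_le_mul_right _ card_orbits_le_card_conjClasses) hk
  · have h1 := card_commutator_le (not_le.1 hk)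
    have hne : commutator G ≠ ⊥ := by
      intro hbot
      apply hab
      have : ⁅a, b⁆ ∈ commutator G := comm_mem a b
      rw [hbot, Subgroup.mem_bot, comm_eq_one_iff] at this
      exact this
    have h2 : (Nat.card G).minFac ≤ Nat.card (commutator G) := by
      apply Nat.minFac_le_of_dvd _ (Subgroup.card_subgroup_dvd_card _)
      have h0 : Nat.card (commutator G) ≠ 1 := fun h => hne (Subgroup.card_eq_one.1 h)
      have h00 : 0 < Nat.card (commutator G) := Nat.card_pos
      omega
    have hcard : Nat.card (commutator G) = (Nat.card G).minFac := le_antisymm h1 h2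
    have hZ := central_of_card_minFac hcard hn1
    have hzp := card_center_mul_sq_le hna
    obtain ⟨p, hp⟩ : ∃ p, p = (Nat.card G).minFac := ⟨_, rfl⟩
    rw [← hp] at hcard hzp hpp ⊢
    have haZ : a ∉ Subgroup.center G := fun h => hab ((Subgroup.mem_center_iff.1 h b).symm)
    obtain ⟨x, hx, α, hα⟩ : ∃ x : G, x ∉ Subgroup.center G ∧ ∃ α : MulAut G,
        ∀ g : G, g ∉ (comHom hZ x).ker → α g * g⁻¹ ∉ commutator G := by
      rcases hpp.eq_two_or_odd' with h2 | hodd
      · by_cases hw : ∃ w ∈ Subgroup.center G, w ^ 2 = 1 ∧ w ∉ commutator G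
        · obtain ⟨w, hwZ, hw2, hwG⟩ := hw
          exact ⟨a, haZ, exists_aut_AB p hpp hcard hZ a w haZ hwG (by rw [h2]; exact hw2)
            (Or.inl hwZ)⟩
        · have hH : ∀ w ∈ Subgroup.center G, w ^ 2 = 1 → w ∈ commutator G := by
            intro w hwZ hw2
            by_contra hn
            exact hw ⟨w, hwZ, hw2, hn⟩
          obtain ⟨x, hx, hx2, hx21⟩ := exists_x_two (by rw [hcard, h2]) hZ a b hab hH
          exact ⟨x, hx, exists_aut_C (by rw [hcard, h2]) hZ x hx2 hx21⟩
      · obtain ⟨h, hh⟩ := hodd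
        obtain ⟨w, hwp, hwG⟩ := exists_w_odd p h hpp hh hcard hZ hzp
        by_cases hwZ : w ∈ Subgroup.center G
        · exact ⟨a, haZ, exists_aut_AB p hpp hcard hZ a w haZ hwG hwp (Or.inl hwZ)⟩
        · exact ⟨w, hwZ, exists_aut_AB p hpp hcard hZ w w hwZ hwG hwp (Or.inr ⟨rfl, h, hh⟩)⟩
    exact orbit_count p hpp hcard hZ hzp (comHom hZ x).ker (center_le_ker hZ x)
      (card_ker_mul p hpp hcard hZ x hx) α hα

end final

end Cfsg.Agent.Lib.Helper29.AutOrb
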