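import Mathlib
import Cfsg.Prelude.Def_Local
import Cfsg.Agent.Lib.Helper69.PSolvable
import Cfsg.Agent.Lib.Helper1.SZInternal
import Cfsg.Agent.Lib.Helper91.Coprime2
import Cfsg.Agent.Lib.Helper1.Tools

/-!
# `p`-solvable groups whose maximal subgroups are `p`-nilpotent or of prime index

`main`: such a group has a normal chain `A ≤ B ≤ C ≤ D` with `A`, `C/B`, `G/D` of order prime
to `p` and `B/A`, `D/C` `p`-groups; for `p = 2` moreover `D = G`.
-/

set_option autoImplicit false

namespace Cfsg.Agent.Lib.Helper29.MaxPNil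

open scoped Pointwise

universe u

/-- Every maximal subgroup has a normal `p`-complement or has prime index. -/
def Hyp (p : ℕ) (G : Type u) [Group G] : Prop :=
  ∀ M : Subgroup G, IsCoatom M →
    (∃ K : Subgroup ↥M, K.Normal ∧ ¬ p ∣ Nat.card K ∧ ∃ k : ℕ, K.index = p ^ k) ∨
      (M.index).Prime

/-- The normal chain of `p`-length at most two. -/
def Ch (p : ℕ) (G : Type u) [Group G] : Prop :=
  ∃ A B C D : Subgroup G, A.Normal ∧ B.Normal ∧ C.Normal ∧ D.Normal ∧ A ≤ B ∧ B ≤ C ∧ C ≤ D ∧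
    ¬ p ∣ Nat.card A ∧ (∃ k : ℕ, A.relIndex B = p ^ k) ∧ ¬ p ∣ B.relIndex C ∧
    (∃ k : ℕ, C.relIndex D = p ^ k) ∧ ¬ p ∣ D.index ∧ (p = 2 → D = ⊤)

variable {G : Type u} [Group G]

theorem isCoatom_comap (N : Subgroup G) [N.Normal] {Mb : Subgroup (G ⧸ N)} (h : IsCoatom Mb) :
    IsCoatom (Mb.comap (QuotientGroup.mk' N)) := by
  have hs : Function.Surjective (QuotientGroup.mk' N) := QuotientGroup.mk'_surjective N
  have hNM : N ≤ Mb.comap (QuotientGroup.mk' N) := by
    intro n hn
    rw [Subgroup.mem_comap]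
    have h1 : QuotientGroup.mk' N n = 1 := (QuotientGroup.eq_one_iff n).mpr hn
    rw [h1]; exact Mb.one_mem
  refine ⟨?_, ?_⟩
  · intro htop
    apply h.1
    rw [← Subgroup.map_comap_eq_self_of_surjective hs Mb, htop, Subgroup.map_top_of_surjective _ hs]
  · intro X hX
    have hNX : N ≤ X := hNM.trans hX.le
    have h1 : (X.map (QuotientGroup.mk' N)).comap (QuotientGroup.mk' N) = X := by
      rw [Subgroup.comap_map_eq, QuotientGroup.ker_mk', sup_eq_left.mpr hNX]
    have h2 : Mb ≤ X.map (QuotientGroup.mk' N) := by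
      rw [← Subgroup.map_comap_eq_self_of_surjective hs Mb]
      exact Subgroup.map_mono hX.le
    have h3 : Mb ≠ X.map (QuotientGroup.mk' N) := by
      intro he
      rw [← he] at h1
      exact hX.ne h1
    have h4 : X.map (QuotientGroup.mk' N) = ⊤ := h.2 _ (lt_of_le_of_ne h2 h3)
    rw [← h1, h4, Subgroup.comap_top]

theorem hyp_quot {p : ℕ} (hp : p.Prime) (h : Hyp p G) (N : Subgroup G) [N.Normal] :
    Hyp p (G ⧸ N) := by
  intro Mb hMb
  have hs : Function.Surjective (QuotientGroup.mk' N) := QuotientGroup.mk'_surjective N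
  rcases h _ (isCoatom_comap N hMb) with ⟨K, hKn, hKp, k, hKi⟩ | hpr
  · left
    have hψ : Function.Surjective ((QuotientGroup.mk' N).subgroupComap Mb) :=
      MonoidHom.subgroupComap_surjective_of_surjective _ _ hs
    refine ⟨K.map ((QuotientGroup.mk' N).subgroupComap Mb), hKn.map _ hψ, ?_, ?_⟩
    · intro hd
      exact hKp (hd.trans (Subgroup.card_map_dvd K _))
    · have h1 := Subgroup.index_map_dvd K hψ
      rw [hKi] at h1
      obtain ⟨i, -, hi⟩ := (Nat.dvd_prime_pow hp).mp h1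
      exact ⟨i, hi⟩
  · right
    rwa [Subgroup.index_comap_of_surjective Mb hs] at hpr

theorem card_comap_mk' [Finite G] (N : Subgroup G) [N.Normal] (X : Subgroup (G ⧸ N)) :
    Nat.card (X.comap (QuotientGroup.mk' N)) = Nat.card X * Nat.card N := by
  have hs : Function.Surjective (QuotientGroup.mk' N) := QuotientGroup.mk'_surjective N
  have e1 := Subgroup.card_mul_index (X.comap (QuotientGroup.mk' N))
  rw [Subgroup.index_comap_of_surjective X hs] at e1
  have e2 := Subgroup.card_mul_index X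
  have e3 := Subgroup.card_eq_card_quotient_mul_card_subgroup N
  have hpos : 0 < X.index := Nat.pos_of_ne_zero Subgroup.index_ne_zero_of_finite
  apply Nat.eq_of_mul_eq_mul_right hpos
  rw [e1, e3, ← e2]; ring

theorem pullback [Finite G] {p : ℕ} (N : Subgroup G) [N.Normal] (h : Ch p (G ⧸ N)) :
    ∃ A B C D : Subgroup G, A.Normal ∧ B.Normal ∧ C.Normal ∧ D.Normal ∧ N ≤ A ∧ A ≤ B ∧ B ≤ C ∧
      C ≤ D ∧ (∃ a : ℕ, ¬ p ∣ a ∧ Nat.card A = a * Nat.card N) ∧
      (∃ k : ℕ, A.relIndex B = p ^ k) ∧ ¬ p ∣ B.relIndex C ∧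
      (∃ k : ℕ, C.relIndex D = p ^ k) ∧ ¬ p ∣ D.index ∧ (p = 2 → D = ⊤) := by
  obtain ⟨A, B, C, D, hA, hB, hC, hD, hAB, hBC, hCD, hpA, hAB', hBC', hCD', hDi, hD2⟩ := h
  have hs : Function.Surjective (QuotientGroup.mk' N) := QuotientGroup.mk'_surjective N
  have hrel : ∀ X Y : Subgroup (G ⧸ N), (X.comap (QuotientGroup.mk' N)).relIndex
      (Y.comap (QuotientGroup.mk' N)) = X.relIndex Y := by
    intro X Y
    rw [Subgroup.relIndex_comap, Subgroup.map_comap_eq_self_of_surjective hs]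
  refine ⟨A.comap (QuotientGroup.mk' N), B.comap (QuotientGroup.mk' N),
    C.comap (QuotientGroup.mk' N), D.comap (QuotientGroup.mk' N), hA.comap _, hB.comap _,
    hC.comap _, hD.comap _, ?_, Subgroup.comap_mono hAB, Subgroup.comap_mono hBC,
    Subgroup.comap_mono hCD, ⟨Nat.card A, hpA, card_comap_mk' N A⟩, ?_, ?_, ?_, ?_, ?_⟩
  · intro n hn
    rw [Subgroup.mem_comap]
    have h1 : QuotientGroup.mk' N n = 1 := (QuotientGroup.eq_one_iff n).mpr hn
    rw [h1]; exact A.one_mem
  · rw [hrel]; exact hAB'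
  · rw [hrel]; exact hBC'
  · rw [hrel]; exact hCD'
  · rw [Subgroup.index_comap_of_surjective D hs]; exact hDi
  · intro h2
    rw [hD2 h2, Subgroup.comap_top]

theorem relIndex_dvd_of_normal {H K K' : Subgroup G} [H.Normal] (h : K ≤ K') :
    H.relIndex K ∣ H.relIndex K' := by
  have h1 := Subgroup.relIndex_dvd_index_of_normal (H.subgroupOf K') (K.subgroupOf K')
  rw [Subgroup.relIndex_subgroupOf h] at h1
  exact h1

theorem inf_relIndex_inf (X Y Z : Subgroup G) :
    (X ⊓ Y).relIndex (Z ⊓ Y) = X.relIndex (Z ⊓ Y) := by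
  rw [← Subgroup.inf_relIndex_right (X ⊓ Y) (Z ⊓ Y), ← Subgroup.inf_relIndex_right X (Z ⊓ Y)]
  congr 1
  apply le_antisymm
  · exact le_inf (inf_le_left.trans inf_le_left) inf_le_right
  · exact le_inf (le_inf inf_le_left (inf_le_right.trans inf_le_right)) inf_le_right

theorem relIndex_inf_dvd {X Z : Subgroup G} (Y : Subgroup G) [X.Normal] :
    (X ⊓ Y).relIndex (Z ⊓ Y) ∣ X.relIndex Z := by
  rw [inf_relIndex_inf]
  exact relIndex_dvd_of_normal inf_le_left

theorem not_dvd_one {p : ℕ} (hp : p.Prime) : ¬ p ∣ 1 := fun h => hp.one_lt.ne' (Nat.dvd_one.mp h)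

/-- Case: the normal `p`-subgroup `N` lies in every maximal subgroup. -/
theorem case_frattini [Finite G] {p : ℕ} (hp : p.Prime) (N : Subgroup G) [N.Normal]
    (hNp : IsPGroup p N) (hall : ∀ M : Subgroup G, IsCoatom M → N ≤ M) (h : Ch p (G ⧸ N)) :
    Ch p G := by
  haveI : Fact p.Prime := ⟨hp⟩
  obtain ⟨A, B, C, D, hA, hB, hC, hD, hNA, hAB, hBC, hCD, ⟨a, hpa, hcA⟩, ⟨k, hAB'⟩, hBC', hCD',
    hDi, hD2⟩ := pullback N h
  obtain ⟨j, hj⟩ := IsPGroup.iff_card.mp hNp
  have hrel : N.relIndex A = a := by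
    have h1 := Helper1.card_eq_card_mul_relIndex hNA
    rw [hcA, mul_comm] at h1
    exact (Nat.eq_of_mul_eq_mul_left Nat.card_pos h1).symm
  have hcop : (Nat.card N).Coprime (N.relIndex A) := by
    rw [hrel, hj]
    exact Nat.Coprime.pow_left j ((Nat.Prime.coprime_iff_not_dvd hp).mpr hpa)
  have hAnN : A ≤ Subgroup.normalizer (N : Set G) := by
    rw [Subgroup.normalizer_eq_top]; exact le_top
  obtain ⟨K, hKA, hKc⟩ := Helper1.sz_exists_internal A N hNA hAnN hcop
  have hKN : K ≤ Subgroup.normalizer (N : Set G) := by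
    rw [Subgroup.normalizer_eq_top]; exact le_top
  have hKcop : (Nat.card K).Coprime (Nat.card N) := by rw [hKc]; exact hcop.symm
  have hNK : N ⊔ K = A := by
    apply Subgroup.eq_of_le_of_card_ge (sup_le hNA hKA)
    rw [Helper1.card_sup_of_normalizer_coprime N K hKN hKcop, hKc, hrel, hcA, mul_comm]
  have hNsol : Group.IsSolvable N := by
    haveI := hNp.isNilpotent
    infer_instance
  have hfr : ∀ g : G, ∃ n ∈ N, n * g ∈ Subgroup.normalizer (K : Set G) := by
    intro g
    have h1 : MulAut.conj g • K ≤ N ⊔ K := by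
      rw [hNK]
      intro y hy
      rw [Helper1.mem_conj_smul] at hy
      have h2 := hA.conj_mem _ (hKA hy) g
      have e : g * (g⁻¹ * y * g) * g⁻¹ = y := by group
      rwa [e] at h2
    have h2 : Nat.card (MulAut.conj g • K : Subgroup G) = Nat.card K :=
      Helper1.card_conj_smul K g
    obtain ⟨n, hn, hnK⟩ := Helper1.sz_conj_internal N K _ hKN hKcop (Or.inr hNsol) h1 h2
    refine ⟨n, hn, ?_⟩
    rw [Subgroup.mem_normalizer_iff'']
    intro x
    rw [← Helper1.mem_conj_smul, map_mul, mul_smul, hnK]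
  have hKnorm : Subgroup.normalizer (K : Set G) = ⊤ := by
    rcases eq_top_or_exists_le_coatom (Subgroup.normalizer (K : Set G)) with h | ⟨M, hM, hle⟩
    · exact h
    · exfalso
      apply hM.1
      rw [eq_top_iff]
      intro g _
      obtain ⟨n, hn, hng⟩ := hfr g
      have e : g = n⁻¹ * (n * g) := by group
      rw [e]
      exact M.mul_mem (M.inv_mem (hall M hM hn)) (hle hng)
  have hKn : K.Normal := Subgroup.normalizer_eq_top_iff.mp hKnorm
  refine ⟨K, B, C, D, hKn, hB, hC, hD, hKA.trans hAB, hBC, hCD, ?_, ?_, hBC', hCD', hDi, hD2⟩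
  · rw [hKc, hrel]; exact hpa
  · have h1 := Subgroup.relIndex_mul_relIndex K A B hKA hAB
    have h2 : K.relIndex A = p ^ j := by
      have h3 := Helper1.card_eq_card_mul_relIndex hKA
      rw [hcA, hKc, hrel, hj] at h3
      have ha0 : 0 < a := Nat.pos_of_ne_zero (fun h0 => hpa (h0 ▸ dvd_zero p))
      exact (Nat.eq_of_mul_eq_mul_left ha0 h3).symm
    exact ⟨j + k, by rw [← h1, h2, hAB', pow_add]⟩

/-- Case: a maximal subgroup not containing `N` has a normal `p`-complement. -/
theorem case_pnil [Finite G] {p : ℕ} (hp : p.Prime) (N : Subgroup G) [N.Normal]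
    (hNp : IsPGroup p N) (M : Subgroup G) (hM : IsCoatom M) (hNM : ¬ N ≤ M) (K : Subgroup ↥M)
    (hKn : K.Normal) (hKp : ¬ p ∣ Nat.card K) {k : ℕ} (hKi : K.index = p ^ k) : Ch p G := by
  haveI : Fact p.Prime := ⟨hp⟩
  have hNMtop : N ⊔ M = ⊤ :=
    hM.2 _ (lt_of_le_of_ne le_sup_right (fun h => hNM (h ▸ le_sup_left)))
  have hK₀M : K.map M.subtype ≤ M := Subgroup.map_subtype_le K
  have hCn : (N ⊔ K.map M.subtype).Normal := by
    rw [← Subgroup.normalizer_eq_top_iff, eq_top_iff, ← hNMtop]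
    refine sup_le (le_sup_left.trans Subgroup.le_normalizer) ?_
    rw [Subgroup.le_normalizer_iff]
    intro m hm x hx
    have hx' : x ∈ (N : Set G) * (K.map M.subtype : Set G) := by
      rw [← Subgroup.normal_mul]; exact hx
    obtain ⟨n, hn, y, hy, rfl⟩ := Set.mem_mul.mp hx'
    obtain ⟨y', hy', rfl⟩ := hy
    have e : m * (n * (M.subtype y')) * m⁻¹ = (m * n * m⁻¹) * (m * M.subtype y' * m⁻¹) := by
      group
    rw [e]
    refine Subgroup.mul_mem_sup (Subgroup.Normal.conj_mem inferInstance n hn m) ?_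
    exact ⟨⟨m, hm⟩ * y' * ⟨m, hm⟩⁻¹, hKn.conj_mem y' hy' ⟨m, hm⟩, rfl⟩
  obtain ⟨j, hj⟩ := IsPGroup.iff_card.mp hNp
  refine ⟨⊥, N, N ⊔ K.map M.subtype, ⊤, inferInstance, inferInstance, hCn, inferInstance, bot_le,
    le_sup_left, le_top, ?_, ⟨j, ?_⟩, ?_, ?_, ?_, fun _ => rfl⟩
  · rw [Subgroup.card_bot]; exact not_dvd_one hp
  · rw [Subgroup.relIndex_bot_left, hj]
  · rw [Subgroup.relIndex_sup_left]
    intro hd
    apply hKp
    have h1 := hd.trans (Subgroup.relIndex_dvd_card N (K.map M.subtype))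
    rwa [Subgroup.card_map_of_injective M.subtype_injective] at h1
  · rw [Subgroup.relIndex_top_right]
    have h1 : (N ⊔ K.map M.subtype).index = (N ⊔ K.map M.subtype).relIndex M := by
      have h2 : (N ⊔ K.map M.subtype) ⊔ M = ⊤ := by
        rw [eq_top_iff, ← hNMtop]
        exact sup_le (le_sup_left.trans le_sup_left) le_sup_right
      rw [← Subgroup.relIndex_top_right, ← h2, Subgroup.relIndex_sup_left]
    have h3 : (N ⊔ K.map M.subtype).relIndex M ∣ (K.map M.subtype).relIndex M :=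
      Subgroup.relIndex_dvd_of_le_left M le_sup_right
    have h4 : (K.map M.subtype).relIndex M = K.index := by
      unfold Subgroup.relIndex Subgroup.subgroupOf
      rw [Subgroup.comap_map_eq_self_of_injective M.subtype_injective]
    rw [h1]
    rw [h4, hKi] at h3
    obtain ⟨i, -, hi⟩ := (Nat.dvd_prime_pow hp).mp h3
    exact ⟨i, hi⟩
  · rw [Subgroup.index_top]; exact not_dvd_one hp

/-- Case: a maximal subgroup not containing the minimal normal `p`-subgroup `N` has prime index. -/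
theorem case_prime [Finite G] {p : ℕ} (hp : p.Prime) (N : Subgroup G) [N.Normal]
    (hNp : IsPGroup p N) (hNbot : N ≠ ⊥)
    (hmin : ∀ N' : Subgroup G, N'.Normal → N' ≤ N → N' = ⊥ ∨ N' = N)
    (M : Subgroup G) (hM : IsCoatom M) (hNM : ¬ N ≤ M) (hMi : M.index.Prime)
    (h : Ch p (G ⧸ N)) : Ch p G := by
  haveI : Fact p.Prime := ⟨hp⟩
  obtain ⟨A, B, C, D, hA, hB, hC, hD, hNA, hAB, hBC, hCD, ⟨a, hpa, hcA⟩, ⟨k, hAB'⟩, hBC',
    ⟨c, hCD'⟩, hDi, hD2⟩ := pullback N h
  obtain ⟨j, hj⟩ := IsPGroup.iff_card.mp hNp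
  have hNMtop : N ⊔ M = ⊤ :=
    hM.2 _ (lt_of_le_of_ne le_sup_right (fun h => hNM (h ▸ le_sup_left)))
  have hMN : M ≤ Subgroup.normalizer (N : Set G) := by
    rw [Subgroup.normalizer_eq_top]; exact le_top
  have hMp : M.index = p := by
    have h1 := Helper91.card_sup_mul_card_inf_of_le_normalizer N M hMN
    rw [hNMtop, Subgroup.card_top, ← Subgroup.card_mul_index M] at h1
    have h2 : M.index * Nat.card (N ⊓ M : Subgroup G) = Nat.card N := by
      apply Nat.eq_of_mul_eq_mul_left (Nat.card_pos : 0 < Nat.card M)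
      rw [← mul_assoc, h1, mul_comm]
    have h3 : M.index ∣ p ^ j := by rw [← hj, ← h2]; exact dvd_mul_right _ _
    exact (Nat.prime_dvd_prime_iff_eq hMi hp).mp (hMi.dvd_of_dvd_pow h3)
  have hLn : M.normalCore.Normal := inferInstance
  have hLM : M.normalCore ≤ M := Subgroup.normalCore_le M
  have hNL : N ⊓ M.normalCore = ⊥ := by
    rcases hmin (N ⊓ M.normalCore) (Subgroup.normal_inf_normal N M.normalCore) inf_le_left with
      h | h
    · exact h
    · exact absurd ((inf_eq_left.mp h).trans hLM) hNM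
  have hLidx : M.normalCore.index ∣ p.factorial := by
    rw [Subgroup.normalCore_eq_ker, Subgroup.index_ker]
    have h1 : Nat.card (MulAction.toPermHom G (G ⧸ M)).range ∣ Nat.card (Equiv.Perm (G ⧸ M)) :=
      Subgroup.card_subgroup_dvd_card _
    rw [Nat.card_perm] at h1
    have h2 : Nat.card (G ⧸ M) = p := hMp
    rwa [h2] at h1
  have hG₀n : (N ⊔ M.normalCore).Normal := inferInstance
  have hLrel : M.normalCore.relIndex (N ⊔ M.normalCore) = p ^ j := by
    rw [Subgroup.relIndex_sup_right, ← Subgroup.inf_relIndex_right, inf_comm, hNL,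
      Subgroup.relIndex_bot_left, hj]
  have hj1 : 1 ≤ j := by
    by_contra hj0
    have hj0' : j = 0 := by omega
    rw [hj0', pow_zero] at hj
    exact hNbot (Subgroup.card_eq_one.mp hj)
  have hG₀i : ¬ p ∣ (N ⊔ M.normalCore).index := by
    intro hd
    have h1 := Subgroup.relIndex_mul_index (show M.normalCore ≤ N ⊔ M.normalCore from le_sup_right)
    rw [hLrel] at h1
    have h2 : p * p ∣ p.factorial := by
      refine dvd_trans ?_ hLidx
      rw [← h1]
      exact mul_dvd_mul (dvd_pow_self p (by omega)) hd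
    rw [← Nat.mul_factorial_pred hp.pos.ne'] at h2
    have h3 : p ∣ (p - 1).factorial := (Nat.mul_dvd_mul_iff_left hp.pos).mp h2
    have h4 := (Nat.Prime.dvd_factorial hp).mp h3
    have h5 := hp.one_lt
    omega
  haveI := hA; haveI := hB; haveI := hC; haveI := hD
  refine ⟨A ⊓ M.normalCore, B ⊓ (N ⊔ M.normalCore), C ⊓ (N ⊔ M.normalCore),
    D ⊓ (N ⊔ M.normalCore), Subgroup.normal_inf_normal _ _, Subgroup.normal_inf_normal _ _,
    Subgroup.normal_inf_normal _ _, Subgroup.normal_inf_normal _ _, inf_le_inf hAB le_sup_right,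
    inf_le_inf_right _ hBC, inf_le_inf_right _ hCD, ?_, ?_, ?_, ?_, ?_, ?_⟩
  · intro hd
    have h1 : (A ⊓ M.normalCore) ⊓ N = ⊥ := by
      rw [eq_bot_iff, ← hNL]; exact le_inf inf_le_right (inf_le_left.trans inf_le_right)
    have h2 := Helper91.card_sup_mul_card_inf_of_le_normalizer (A ⊓ M.normalCore) N
      (by rw [Subgroup.normalizer_eq_top]; exact le_top)
    rw [h1, Subgroup.card_bot, mul_one] at h2
    have h3 : Nat.card ((A ⊓ M.normalCore) ⊔ N : Subgroup G) ∣ Nat.card A :=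
      Subgroup.card_dvd_of_le (sup_le inf_le_left hNA)
    rw [h2, hcA] at h3
    have h4 : Nat.card (A ⊓ M.normalCore : Subgroup G) ∣ a :=
      (Nat.mul_dvd_mul_iff_right Nat.card_pos).mp h3
    exact hpa (hd.trans h4)
  · have h1 := Subgroup.relIndex_mul_relIndex (A ⊓ M.normalCore) (A ⊓ (N ⊔ M.normalCore))
      (B ⊓ (N ⊔ M.normalCore)) (inf_le_inf_left A le_sup_right) (inf_le_inf_right _ hAB)
    have h2 : (A ⊓ M.normalCore).relIndex (A ⊓ (N ⊔ M.normalCore)) ∣ p ^ j := by
      rw [← hLrel, inf_comm A M.normalCore, inf_comm A (N ⊔ M.normalCore)]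
      exact relIndex_inf_dvd A
    have h3 : (A ⊓ (N ⊔ M.normalCore)).relIndex (B ⊓ (N ⊔ M.normalCore)) ∣ p ^ k := by
      rw [← hAB']
      exact relIndex_inf_dvd (N ⊔ M.normalCore)
    obtain ⟨i₁, -, hi₁⟩ := (Nat.dvd_prime_pow hp).mp h2
    obtain ⟨i₂, -, hi₂⟩ := (Nat.dvd_prime_pow hp).mp h3
    exact ⟨i₁ + i₂, by rw [← h1, hi₁, hi₂, pow_add]⟩
  · intro hd
    exact hBC' (hd.trans (relIndex_inf_dvd (N ⊔ M.normalCore)))
  · have h3 : (C ⊓ (N ⊔ M.normalCore)).relIndex (D ⊓ (N ⊔ M.normalCore)) ∣ p ^ c := by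
      rw [← hCD']
      exact relIndex_inf_dvd (N ⊔ M.normalCore)
    obtain ⟨i, -, hi⟩ := (Nat.dvd_prime_pow hp).mp h3
    exact ⟨i, hi⟩
  · intro hd
    have h1 := Subgroup.relIndex_mul_index
      (show D ⊓ (N ⊔ M.normalCore) ≤ N ⊔ M.normalCore from inf_le_right)
    rw [Subgroup.inf_relIndex_right] at h1
    rw [← h1] at hd
    rcases (Nat.Prime.dvd_mul hp).mp hd with h | h
    · exact hDi (h.trans (Subgroup.relIndex_dvd_index_of_normal D _))
    · exact hG₀i h
  · intro hp2
    have hMn : M.Normal := Subgroup.normal_of_index_eq_two (by rw [hMp, hp2])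
    rw [hD2 hp2, Subgroup.normalCore_eq_self M, hNMtop, inf_top_eq]

/-- A finite `p`-solvable group all of whose maximal subgroups have a normal `p`-complement or
prime index has a normal chain of `p`-length two (and `D = G` when `p = 2`). -/
theorem main_aux (p : ℕ) [hpf : Fact p.Prime] : ∀ (n : ℕ) (G : Type u) [Group G] [Finite G],
    Nat.card G = n → Cfsg.IsPSolvable p G → Hyp p G → Ch p G := by
  have hp : p.Prime := hpf.out
  intro n
  induction n using Nat.strong_induction_on with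
  | _ n ih =>
    intro G _ _ hn hsol hhyp
    rcases subsingleton_or_nontrivial G with hsub | hnt
    · refine ⟨⊥, ⊥, ⊥, ⊤, inferInstance, inferInstance, inferInstance, inferInstance, le_rfl,
        le_rfl, bot_le, ?_, ⟨0, ?_⟩, ?_, ⟨0, ?_⟩, ?_, fun _ => rfl⟩
      · rw [Subgroup.card_bot]; exact not_dvd_one hp
      · rw [Subgroup.relIndex_self, pow_zero]
      · rw [Subgroup.relIndex_self]; exact not_dvd_one hp
      · rw [Subgroup.relIndex_top_right, Subgroup.index_bot, pow_zero]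
        exact Nat.card_eq_one_iff_unique.mpr ⟨hsub, ⟨1⟩⟩
      · rw [Subgroup.index_top]; exact not_dvd_one hp
    · have hquot : ∀ (N : Subgroup G) [N.Normal], N ≠ ⊥ → Ch p (G ⧸ N) := by
        intro N hN hNbot
        have hlt : Nat.card (G ⧸ N) < n := by
          rw [← hn, Subgroup.card_eq_card_quotient_mul_card_subgroup N]
          have h1 : 1 < Nat.card N := by
            rcases Nat.lt_or_ge 1 (Nat.card N) with h | h
            · exact h
            · exfalso
              apply hNbot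
              apply Subgroup.card_eq_one.mp
              have h0 := Nat.card_pos (α := N)
              omega
          have h2 : 0 < Nat.card (G ⧸ N) := Nat.card_pos
          nlinarith
        exact ih _ hlt (G ⧸ N) rfl
          (Helper69.isPSolvable_of_surj p _ (QuotientGroup.mk'_surjective N) hsol)
          (hyp_quot hp hhyp N)
      by_cases hex : ∃ N : Subgroup G, N.Normal ∧ N ≠ ⊥ ∧ (Nat.card N).Coprime p
      · obtain ⟨N, hN, hNbot, hNc⟩ := hex
        haveI := hN
        obtain ⟨A, B, C, D, hA, hB, hC, hD, hNA, hAB, hBC, hCD, ⟨a, hpa, hcA⟩, hAB', hBC', hCD',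
          hDi, hD2⟩ := pullback N (hquot N hNbot)
        refine ⟨A, B, C, D, hA, hB, hC, hD, hAB, hBC, hCD, ?_, hAB', hBC', hCD', hDi, hD2⟩
        rw [hcA]
        intro hd
        rcases (Nat.Prime.dvd_mul hp).mp hd with h | h
        · exact hpa h
        · exact (Nat.Prime.coprime_iff_not_dvd hp).mp hNc.symm h
      · obtain ⟨N₀, hN₀n, hN₀bot, hN₀⟩ := Helper69.exists_normal_of_isPSolv p hsol
        have hN₀p : IsPGroup p N₀ := by
          rcases hN₀ with h | h
          · exact h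
          · exact absurd ⟨N₀, hN₀n, hN₀bot, h⟩ hex
        obtain ⟨N, -, hNmin⟩ := Finite.exists_le_minimal
          (p := fun N : Subgroup G => N.Normal ∧ N ≠ ⊥ ∧ IsPGroup p N) ⟨hN₀n, hN₀bot, hN₀p⟩
        obtain ⟨hNn, hNbot, hNp⟩ := hNmin.prop
        haveI := hNn
        have hmin : ∀ N' : Subgroup G, N'.Normal → N' ≤ N → N' = ⊥ ∨ N' = N := by
          intro N' hN' hle
          by_cases hb : N' = ⊥
          · exact Or.inl hb
          · exact Or.inr (le_antisymm hle (hNmin.le_of_le ⟨hN', hb, hNp.to_le hle⟩ hle))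
        have hq := hquot N hNbot
        by_cases hall : ∀ M : Subgroup G, IsCoatom M → N ≤ M
        · exact case_frattini hp N hNp hall hq
        · push Not at hall
          obtain ⟨M, hM, hNM⟩ := hall
          rcases hhyp M hM with ⟨K, hKn, hKp, k, hKi⟩ | hpr
          · exact case_pnil hp N hNp M hM hNM K hKn hKp hKi
          · exact case_prime hp N hNp hNbot hmin M hM hNM hpr hq

theorem main {G : Type u} [Group G] [Finite G] (p : ℕ) [Fact p.Prime]
    (hsol : Cfsg.IsPSolvable p G) (h : Hyp p G) : Ch p G :=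
  main_aux p _ G rfl hsol h

end Cfsg.Agent.Lib.Helper29.MaxPNil
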