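import Mathlib
import Cfsg.Agent.Lib.Helper91.SO2Wrap
import Cfsg.Agent.Lib.Helper91.SSFive2
import Cfsg.Agent.Lib.Helper91.SSTop

/-!
# Common glue for the S0983 block orders (helper29)

`deg_facts`: the arithmetic facts on the degree of a non-exceptional character of the principal
`p`-block; `rel_int`: the degree relation at `1` as an integer equation; `one_le_sum_sq`.
-/

set_option autoImplicit false

namespace Cfsg.Agent.Lib.Helper29.OrdC

open Cfsg Cfsg.Agent.Lib.Helper17 Cfsg.Agent.Lib.Helper91.SS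

universe u

variable {G : Type u} [Group G] [Finite G]

theorem deg_facts [IsSimpleGroup G] (p : ℕ) [Fact p.Prime] (P : Subgroup G)
    (hP : Nat.card P = p) (χ : IrrCharacter G) (hχ1 : (χ : G → ℂ) 1 ≠ 1) (a : ℤ)
    (hval : ∀ z y : G, IsPPart p z y → y ∈ P → y ≠ 1 → (χ : G → ℂ) z = (a : ℂ)) :
    Cfsg.charDegree (χ : G → ℂ) ∣ Nat.card G ∧ Cfsg.charDegree (χ : G → ℂ) ≠ 1 ∧
      Cfsg.charDegree (χ : G → ℂ) ^ 2 ≤ Nat.card G ∧
      (Cfsg.charDegree (χ : G → ℂ) : ℤ) % (p : ℤ) = a % (p : ℤ) ∧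
      (Cfsg.charDegree (χ : G → ℂ) : ℤ) ≠ a := by
  have hpp : p.Prime := Fact.out
  have hirr := χ.2
  obtain ⟨hxd, hxpos, hxdvd⟩ := Cfsg.Agent.Lib.Helper79.irr_charDegree hirr
  refine ⟨hxdvd, ?_, Cfsg.Agent.Lib.Helper80.charDegree_sq_le_card hirr, ?_, ?_⟩
  · intro h
    apply hχ1
    rw [hxd, h]
    norm_num
  · exact Cfsg.Agent.Lib.Helper90.BrauerDeg.degree_modEq hirr p P hP a
      (fun y hy hy1 => hval y y (isPPart_self hpp P hP y hy hy1) hy hy1)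
  · intro h
    have hne : P ≠ ⊥ := by
      intro hb
      rw [hb, Subgroup.card_bot] at hP
      exact hpp.one_lt.ne' hP.symm
    obtain ⟨⟨y, hy⟩, hy1⟩ := (Subgroup.ne_bot_iff_exists_ne_one).mp hne
    have hy1' : y ≠ 1 := fun h' => hy1 (Subtype.ext h')
    have h1 : (χ : G → ℂ) y = (χ : G → ℂ) 1 := by
      rw [hval y y (isPPart_self hpp P hP y hy hy1') hy hy1', hxd, ← h, Int.cast_natCast]
    exact hy1' (eq_one_of_char_eq χ hχ1 y h1)

theorem rel_int (p : ℕ) (hp : 1 < p) (η : IrrCharacter G) (k : ℕ) (χ : Fin k → IrrCharacter G)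
    (a : Fin k → ℤ) (c : ℤ)
    (hrel : ∀ g : G, ¬ p ∣ orderOf g →
      (c : ℂ) * (η : G → ℂ) g + 1 + ∑ i, (a i : ℂ) * (χ i : G → ℂ) g = 0) :
    c * (Cfsg.charDegree (η : G → ℂ) : ℤ) + 1 +
      ∑ i, a i * (Cfsg.charDegree (χ i : G → ℂ) : ℤ) = 0 := by
  have h1 := hrel 1 (by
    rw [orderOf_one]
    intro h
    have := Nat.le_of_dvd one_pos h
    omega)
  rw [(Cfsg.Agent.Lib.Helper79.irr_charDegree η.2).1] at h1
  have hs : ∑ i, (a i : ℂ) * (χ i : G → ℂ) 1 =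
      ((∑ i, a i * (Cfsg.charDegree (χ i : G → ℂ) : ℤ) : ℤ) : ℂ) := by
    push_cast
    apply Finset.sum_congr rfl
    intro i _
    rw [(Cfsg.Agent.Lib.Helper79.irr_charDegree (χ i).2).1]
  rw [hs] at h1
  exact_mod_cast h1

theorem card_le_sum_sq (k : ℕ) (a : Fin k → ℤ) (ha : ∀ i, a i ≠ 0) :
    (k : ℤ) ≤ ∑ i, a i ^ 2 := by
  have h1 : ∑ _i : Fin k, (1 : ℤ) ≤ ∑ i, a i ^ 2 := by
    apply Finset.sum_le_sum
    intro i _
    have := ha i
    have h2 : 0 < a i ^ 2 := by positivity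
    omega
  simpa using h1

end Cfsg.Agent.Lib.Helper29.OrdC
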