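import Mathlib
import Cfsg.Agent.Lib.Helper29.OrdCommon

/-!
# S0983 package: no non-abelian simple group of order 4680 = 2^3 * 3^2 * 5 * 13

`p = 13`, the only local case is `([N(P):C(P)], |C(P)|) = (3, 39)`; Brauer's relations for the
principal `13`-block have no solution: `d = 0`, two non-exceptional characters with `a = ±1`,
degrees `40` (`a = 1`) or `12` (`a = -1`), and then the exceptional degree would be `81`, `29`
or `23`.
-/

set_option autoImplicit false

namespace Cfsg.Agent.Lib.Helper29.Ord4680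

open Cfsg Cfsg.Agent.Lib.Helper17 Cfsg.Agent.Lib.Helper93.SO Cfsg.Agent.Lib.Helper91.SO2
  Cfsg.Agent.Lib.Helper91.SS Cfsg.Agent.Lib.Helper29.OrdC

universe u

theorem list_4680 (f : ℕ) (hf : f ∣ 4680) (h1 : f ≠ 1) (hsq : f ^ 2 ≤ 4680) :
    (f % 13 = 1 → f = 40) ∧ (f % 13 = 12 → f = 12) := by
  have hf' : f ∈ Nat.divisors 4680 := Nat.mem_divisors.mpr ⟨hf, by norm_num⟩
  have key : ∀ f ∈ Nat.divisors 4680, f ≠ 1 → f ^ 2 ≤ 4680 →
      (f % 13 = 1 → f = 40) ∧ (f % 13 = 12 → f = 12) := by decide +kernel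
  exact key f hf' h1 hsq

theorem fin_4680 (f0 : ℕ) (hf0 : f0 ∣ 4680) (δ : ℤ) (hδ : δ = 1 ∨ δ = -1) (v : ℤ)
    (hv : v = 81 ∨ v = 29 ∨ v = -23) (h : δ * (f0 : ℤ) = v) : False := by
  have h3 : f0 = 81 ∨ f0 = 29 ∨ f0 = 23 := by
    rcases hδ with rfl | rfl <;> rcases hv with rfl | rfl | rfl <;> omega
  rcases h3 with rfl | rfl | rfl <;> norm_num at hf0

theorem case_4680 {G : Type u} [Group G] [Finite G] [IsSimpleGroup G]
    (hG : Nat.card G = 4680) (P : Sylow 13 G) (hP : Nat.card (P : Subgroup G) = 13)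
    (hr : (Subgroup.centralizer ((P : Subgroup G) : Set G)).relIndex
      (Subgroup.normalizer ((P : Subgroup G) : Set G)) = 3) : False := by
  have : Fact (Nat.Prime 13) := ⟨by norm_num⟩
  have hGn : ¬ (Nat.card G).Prime := by rw [hG]; norm_num
  obtain ⟨k, χ, a, η, d, δ, hk, hδ, hχ, hη1, hηP, hnorm, hrel, hj, hreal⟩ :=
    brauer_chars hGn 13 P hP 3 (by norm_num) hr
  have h2 : ((13 - 1) / 3 : ℕ) = 4 := by norm_num
  rw [h2] at hnorm hrel
  push_cast at hnorm
  have hrelZ := rel_int 13 (by norm_num) η k χ a (4 * d - δ) (fun g hg => by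
    have := hrel g hg
    push_cast at this ⊢
    linear_combination this)
  obtain ⟨-, -, hf0dvd⟩ := Cfsg.Agent.Lib.Helper79.irr_charDegree η.2
  rw [hG] at hf0dvd
  obtain ⟨f0, hf0⟩ : ∃ f0, f0 = Cfsg.charDegree (η : G → ℂ) := ⟨_, rfl⟩
  rw [← hf0] at hrelZ hf0dvd
  have hkS := card_le_sum_sq k a (fun i => (hχ i).1)
  obtain ⟨S, hS⟩ : ∃ S, S = ∑ i, a i ^ 2 := ⟨_, rfl⟩
  rw [← hS] at hnorm hkS
  have hd : -1 ≤ d ∧ d ≤ 1 := by
    constructor <;> rcases hδ with rfl | rfl <;> nlinarith [sq_nonneg (d - 1), sq_nonneg (d + 1)]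
  obtain ⟨hd1, hd2⟩ := hd
  have hcases : (d = 0 ∧ S = 2) ∨ (d = δ ∧ S = 0) := by
    interval_cases d <;> rcases hδ with rfl | rfl <;> norm_num at hnorm ⊢ <;> omega
  rcases hcases with ⟨hd0, hS2⟩ | ⟨hdδ, hS0⟩
  · -- d = 0, two characters with a = ±1
    have hk2 : k = 2 := by
      have hk' : k ≤ 2 := by omega
      interval_cases k
      · simp at hS
        omega
      · simp only [Fin.sum_univ_succ, Fin.sum_univ_zero, add_zero] at hS
        have h0 := (hχ 0).1
        have hb : -1 ≤ a 0 ∧ a 0 ≤ 1 := by constructor <;> nlinarith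
        obtain ⟨hb1, hb2⟩ := hb
        have : a 0 ^ 2 ≤ 1 := by nlinarith
        omega
      · rfl
    subst hk2
    simp only [Fin.sum_univ_two] at hS hrelZ
    have hsq : ∀ i, a i ^ 2 = 1 := by
      have h0 : 0 < a 0 ^ 2 := by have := (hχ 0).1; positivity
      have h1 : 0 < a 1 ^ 2 := by have := (hχ 1).1; positivity
      have hs' : a 0 ^ 2 + a 1 ^ 2 = 2 := by
        rw [hS2] at hS
        simpa using hS.symm
      intro i
      fin_cases i
      · show a 0 ^ 2 = 1
        omega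
      · show a 1 ^ 2 = 1
        omega
    have hpm : ∀ i, a i = 1 ∨ a i = -1 := by
      intro i
      have h1 : (a i - 1) * (a i + 1) = 0 := by nlinarith [hsq i]
      rcases mul_eq_zero.mp h1 with h | h
      · left; omega
      · right; omega
    have hfa : ∀ i, (Cfsg.charDegree (χ i : G → ℂ) = 40 ∧ a i = 1) ∨
        (Cfsg.charDegree (χ i : G → ℂ) = 12 ∧ a i = -1) := by
      intro i
      obtain ⟨-, hx1, hxa⟩ := hχ i
      obtain ⟨hdvd, hne1, hsq', hmod, -⟩ := deg_facts 13 (P : Subgroup G) hP (χ i) hx1 (a i) hxa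
      rw [hG] at hdvd hsq'
      obtain ⟨l1, l2⟩ := list_4680 _ hdvd hne1 hsq'
      push_cast at hmod
      rcases hpm i with h | h
      · left
        rw [h] at hmod
        exact ⟨l1 (by omega), h⟩
      · right
        rw [h] at hmod
        exact ⟨l2 (by omega), h⟩
    rw [hd0] at hrelZ
    apply fin_4680 f0 hf0dvd δ hδ (1 + (a 0 * (Cfsg.charDegree (χ 0 : G → ℂ) : ℤ) +
      a 1 * (Cfsg.charDegree (χ 1 : G → ℂ) : ℤ))) ?_ (by linear_combination (-1 : ℤ) * hrelZ)
    rcases hfa 0 with ⟨h0, h0'⟩ | ⟨h0, h0'⟩ <;> rcases hfa 1 with ⟨h1, h1'⟩ | ⟨h1, h1'⟩ <;>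
      rw [h0, h0', h1, h1'] <;> norm_num
  · -- d = δ, no non-exceptional character
    have hk0 : k = 0 := by omega
    subst hk0
    simp only [Finset.univ_eq_empty, Finset.sum_empty, add_zero] at hrelZ
    rw [hdδ] at hrelZ
    rcases hδ with rfl | rfl <;> omega

theorem noSimple_4680 : NoSimple.{u} 4680 :=
  noSimple_of_cases 4680 13 2 360 (by norm_num) (by norm_num) (by norm_num) (by norm_num)
    (by norm_num) (by norm_num) (by norm_num) [(3, 39)] (by decide +kernel)
    (by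
      intro rc hrc G _ _ _ hG P hP hr hC
      simp only [List.mem_singleton] at hrc
      subst hrc
      exact case_4680 hG P hP hr)

end Cfsg.Agent.Lib.Helper29.Ord4680
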