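import Mathlib
import Cfsg.Agent.Lib.Helper29.OrdCommon

/-!
# S0983 package: no non-abelian simple group of order 4960 = 2^5 * 5 * 31

`p = 31`, the only local case is `([N(P):C(P)], |C(P)|) = (5, 31)`; Brauer's relations for the
principal `31`-block have no solution: `d = 0` and either one non-exceptional character with
`a = ±2` (degree `2 = a`, impossible, or no degree at all), or four with `a = ±1` (all of degree
`32`, `a = 1`, and then the exceptional degree would be `129`).
-/

set_option autoImplicit false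

namespace Cfsg.Agent.Lib.Helper29.Ord4960

open Cfsg Cfsg.Agent.Lib.Helper17 Cfsg.Agent.Lib.Helper93.SO Cfsg.Agent.Lib.Helper91.SO2
  Cfsg.Agent.Lib.Helper91.SS Cfsg.Agent.Lib.Helper29.OrdC

universe u

theorem list_4960 (f : ℕ) (hf : f ∣ 4960) (h1 : f ≠ 1) (hsq : f ^ 2 ≤ 4960) :
    (f % 31 = 1 → f = 32) ∧ (f % 31 = 30 → False) ∧ (f % 31 = 2 → f = 2) ∧
      (f % 31 = 29 → False) := by
  have hf' : f ∈ Nat.divisors 4960 := Nat.mem_divisors.mpr ⟨hf, by norm_num⟩
  have key : ∀ f ∈ Nat.divisors 4960, f ≠ 1 → f ^ 2 ≤ 4960 →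
      (f % 31 = 1 → f = 32) ∧ (f % 31 = 30 → False) ∧ (f % 31 = 2 → f = 2) ∧
        (f % 31 = 29 → False) := by decide +kernel
  exact key f hf' h1 hsq

theorem case_4960 {G : Type u} [Group G] [Finite G] [IsSimpleGroup G]
    (hG : Nat.card G = 4960) (P : Sylow 31 G) (hP : Nat.card (P : Subgroup G) = 31)
    (hr : (Subgroup.centralizer ((P : Subgroup G) : Set G)).relIndex
      (Subgroup.normalizer ((P : Subgroup G) : Set G)) = 5) : False := by
  have : Fact (Nat.Prime 31) := ⟨by norm_num⟩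
  have hGn : ¬ (Nat.card G).Prime := by rw [hG]; norm_num
  obtain ⟨k, χ, a, η, d, δ, hk, hδ, hχ, hη1, hηP, hnorm, hrel, hj, hreal⟩ :=
    brauer_chars hGn 31 P hP 5 (by norm_num) hr
  have h2 : ((31 - 1) / 5 : ℕ) = 6 := by norm_num
  rw [h2] at hnorm hrel
  push_cast at hnorm
  have hrelZ := rel_int 31 (by norm_num) η k χ a (6 * d - δ) (fun g hg => by
    have := hrel g hg
    push_cast at this ⊢
    linear_combination this)
  obtain ⟨-, -, hf0dvd⟩ := Cfsg.Agent.Lib.Helper79.irr_charDegree η.2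
  rw [hG] at hf0dvd
  obtain ⟨f0, hf0⟩ : ∃ f0, f0 = Cfsg.charDegree (η : G → ℂ) := ⟨_, rfl⟩
  rw [← hf0] at hrelZ hf0dvd
  have hkS := card_le_sum_sq k a (fun i => (hχ i).1)
  obtain ⟨S, hS⟩ : ∃ S, S = ∑ i, a i ^ 2 := ⟨_, rfl⟩
  rw [← hS] at hnorm hkS
  have hd : -1 ≤ d ∧ d ≤ 1 := by
    constructor <;> rcases hδ with rfl | rfl <;> nlinarith [sq_nonneg (d - 1), sq_nonneg (d + 1)]
  obtain ⟨hd1, hd2⟩ := hd
  have hcases : (d = 0 ∧ S = 4) ∨ (d = δ ∧ S = 0) := by
    interval_cases d <;> rcases hδ with rfl | rfl <;> norm_num at hnorm ⊢ <;> omega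
  -- facts on the non-exceptional degrees
  have hfacts : ∀ i, (a i = 1 → Cfsg.charDegree (χ i : G → ℂ) = 32) ∧ a i ≠ -1 ∧ a i ≠ 2 ∧
      a i ≠ -2 := by
    intro i
    obtain ⟨-, hx1, hxa⟩ := hχ i
    obtain ⟨hdvd, hne1, hsq', hmod, hne⟩ := deg_facts 31 (P : Subgroup G) hP (χ i) hx1 (a i) hxa
    rw [hG] at hdvd hsq'
    obtain ⟨l1, l2, l3, l4⟩ := list_4960 _ hdvd hne1 hsq'
    push_cast at hmod
    refine ⟨fun h => ?_, fun h => ?_, fun h => ?_, fun h => ?_⟩
    · rw [h] at hmod
      exact l1 (by omega)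
    · rw [h] at hmod
      exact l2 (by omega)
    · rw [h] at hmod hne
      have := l3 (by omega)
      omega
    · rw [h] at hmod
      exact l4 (by omega)
  have hpos : ∀ i, 1 ≤ a i ^ 2 := by
    intro i
    have := (hχ i).1
    have h2 : 0 < a i ^ 2 := by positivity
    omega
  rcases hcases with ⟨hd0, hS4⟩ | ⟨hdδ, hS0⟩
  · have hk' : k ≤ 4 := by omega
    interval_cases k
    · simp at hS
      omega
    · simp only [Fin.sum_univ_one] at hS
      have h1 : (a 0 - 2) * (a 0 + 2) = 0 := by nlinarith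
      obtain ⟨-, -, h2, h3⟩ := hfacts 0
      rcases mul_eq_zero.mp h1 with h | h
      · exact h2 (by omega)
      · exact h3 (by omega)
    · simp only [Fin.sum_univ_two] at hS
      have p0 := hpos 0
      have p1 := hpos 1
      have hb0 : -1 ≤ a 0 ∧ a 0 ≤ 1 := by constructor <;> nlinarith
      have hb1 : -1 ≤ a 1 ∧ a 1 ≤ 1 := by constructor <;> nlinarith
      have q0 : a 0 ^ 2 ≤ 1 := by nlinarith
      have q1 : a 1 ^ 2 ≤ 1 := by nlinarith
      omega
    · simp only [Fin.sum_univ_three] at hS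
      have p0 := hpos 0
      have p1 := hpos 1
      have p2 := hpos 2
      have hb0 : -1 ≤ a 0 ∧ a 0 ≤ 1 := by constructor <;> nlinarith
      have hb1 : -1 ≤ a 1 ∧ a 1 ≤ 1 := by constructor <;> nlinarith
      have hb2 : -1 ≤ a 2 ∧ a 2 ≤ 1 := by constructor <;> nlinarith
      have q0 : a 0 ^ 2 ≤ 1 := by nlinarith
      have q1 : a 1 ^ 2 ≤ 1 := by nlinarith
      have q2 : a 2 ^ 2 ≤ 1 := by nlinarith
      omega
    · simp only [Fin.sum_univ_four] at hS hrelZ
      have p0 := hpos 0
      have p1 := hpos 1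
      have p2 := hpos 2
      have p3 := hpos 3
      have hone : ∀ i, a i = 1 := by
        have hsq : ∀ i, a i ^ 2 = 1 := by
          intro i
          fin_cases i
          · show a 0 ^ 2 = 1
            omega
          · show a 1 ^ 2 = 1
            omega
          · show a 2 ^ 2 = 1
            omega
          · show a 3 ^ 2 = 1
            omega
        intro i
        have h1 : (a i - 1) * (a i + 1) = 0 := by nlinarith [hsq i]
        rcases mul_eq_zero.mp h1 with h | h
        · omega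
        · exact absurd (by omega) (hfacts i).2.1
      rw [hd0, hone 0, hone 1, hone 2, hone 3, (hfacts 0).1 (hone 0), (hfacts 1).1 (hone 1),
        (hfacts 2).1 (hone 2), (hfacts 3).1 (hone 3)] at hrelZ
      have h129 : f0 = 129 := by
        rcases hδ with rfl | rfl <;> push_cast at hrelZ <;> omega
      rw [h129] at hf0dvd
      norm_num at hf0dvd
  · have hk0 : k = 0 := by omega
    subst hk0
    simp only [Finset.univ_eq_empty, Finset.sum_empty, add_zero] at hrelZ
    rw [hdδ] at hrelZ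
    rcases hδ with rfl | rfl <;> omega

theorem noSimple_4960 : NoSimple.{u} 4960 :=
  noSimple_of_cases 4960 31 2 160 (by norm_num) (by norm_num) (by norm_num) (by norm_num)
    (by norm_num) (by norm_num) (by norm_num) [(5, 31)] (by decide +kernel)
    (by
      intro rc hrc G _ _ _ hG P hP hr hC
      simp only [List.mem_singleton] at hrc
      subst hrc
      exact case_4960 hG P hP hr)

end Cfsg.Agent.Lib.Helper29.Ord4960
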