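import Mathlib
import Cfsg.Prelude.Def_KGroupFacts

/-!
Tools for Schur multipliers said through stem extensions (`Cfsg.HasSchurMultiplier`):
stem extensions of groups generated by two elements `a`, `b` with `b a b⁻¹ = a⁻¹`.
-/

set_option autoImplicit false

namespace Cfsg.Agent.Lib.Helper29

universe u v

/-- A subgroup containing the kernel and mapping onto everything is everything. -/
theorem eq_top_of_ker_le_of_map_eq_top {Γ : Type*} {G : Type*} [Group Γ] [Group G]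
    (σ : Γ →* G) (H : Subgroup Γ) (hker : σ.ker ≤ H) (hmap : H.map σ = ⊤) : H = ⊤ := by
  rw [← Subgroup.comap_map_eq_self hker, hmap, Subgroup.comap_top]

/-- If a generating set commutes pairwise modulo a normal subgroup `W`, then the commutator
subgroup lies in `W`. -/
theorem commutator_le_of_gen_comm {Γ : Type*} [Group Γ] (W : Subgroup Γ) [W.Normal] (S : Set Γ)
    (hgen : Subgroup.closure S = ⊤) (hS : ∀ s ∈ S, ∀ t ∈ S, (s * t)⁻¹ * (t * s) ∈ W) :
    commutator Γ ≤ W := by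
  have h1 : ∀ s ∈ S, ∀ g : Γ,
      (QuotientGroup.mk g : Γ ⧸ W) * QuotientGroup.mk s = QuotientGroup.mk s * QuotientGroup.mk g := by
    intro s hs g
    have hg : g ∈ Subgroup.closure S := hgen ▸ Subgroup.mem_top g
    refine Subgroup.closure_induction (p := fun g _ =>
      (QuotientGroup.mk g : Γ ⧸ W) * QuotientGroup.mk s = QuotientGroup.mk s * QuotientGroup.mk g)
      ?_ ?_ ?_ ?_ hg
    · intro t ht
      rw [← QuotientGroup.mk_mul, ← QuotientGroup.mk_mul, QuotientGroup.eq]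
      exact hS t ht s hs
    · rw [QuotientGroup.mk_one, one_mul, mul_one]
    · intro a b _ _ ha hb
      rw [QuotientGroup.mk_mul, mul_assoc, hb, ← mul_assoc, ha, mul_assoc]
    · intro a _ ha
      rw [QuotientGroup.mk_inv]
      have h2 := congrArg (fun q => (QuotientGroup.mk a : Γ ⧸ W)⁻¹ * q *
        (QuotientGroup.mk a : Γ ⧸ W)⁻¹) ha
      simp only [mul_assoc, inv_mul_cancel_left, mul_inv_cancel, mul_one] at h2
      exact h2.symm
  have h2 : ∀ g h : Γ,
      (QuotientGroup.mk g : Γ ⧸ W) * QuotientGroup.mk h = QuotientGroup.mk h * QuotientGroup.mk g := by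
    intro g h
    have hh : h ∈ Subgroup.closure S := hgen ▸ Subgroup.mem_top h
    refine Subgroup.closure_induction (p := fun h _ =>
      (QuotientGroup.mk g : Γ ⧸ W) * QuotientGroup.mk h = QuotientGroup.mk h * QuotientGroup.mk g)
      ?_ ?_ ?_ ?_ hh
    · intro t ht
      exact h1 t ht g
    · rw [QuotientGroup.mk_one, one_mul, mul_one]
    · intro a b _ _ ha hb
      rw [QuotientGroup.mk_mul, ← mul_assoc, ha, mul_assoc, hb, mul_assoc]
    · intro a _ ha
      rw [QuotientGroup.mk_inv]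
      have h3 := congrArg (fun q => (QuotientGroup.mk a : Γ ⧸ W)⁻¹ * q *
        (QuotientGroup.mk a : Γ ⧸ W)⁻¹) ha
      simp only [mul_assoc, inv_mul_cancel_left, mul_inv_cancel, mul_one] at h3
      exact h3.symm
  rw [commutator_def, Subgroup.commutator_le]
  intro a _ b _
  rw [← QuotientGroup.eq_one_iff, commutatorElement_def, QuotientGroup.mk_mul, QuotientGroup.mk_mul,
    QuotientGroup.mk_mul, QuotientGroup.mk_inv, QuotientGroup.mk_inv, h2 a b, mul_inv_cancel_right,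
    mul_inv_cancel]

/-- An element conjugating `w` and its inverse conjugate into `zpowers w` normalizes `zpowers w`. -/
theorem mem_normalizer_zpowers {Γ : Type*} [Group Γ] (w g : Γ)
    (h1 : g * w * g⁻¹ ∈ Subgroup.zpowers w) (h2 : g⁻¹ * w * g ∈ Subgroup.zpowers w) :
    g ∈ Subgroup.normalizer (Subgroup.zpowers w : Set Γ) := by
  rw [Subgroup.mem_normalizer_iff]
  intro h
  constructor
  · rintro ⟨k, rfl⟩
    have : g * w ^ k * g⁻¹ = (g * w * g⁻¹) ^ k := conj_zpow.symm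
    rw [this]
    exact Subgroup.zpow_mem _ h1 k
  · rintro ⟨k, hk⟩
    have hk' : w ^ k = g * h * g⁻¹ := hk
    have : h = (g⁻¹ * w * g) ^ k := by
      have h3 : (g⁻¹ * w * g) ^ k = g⁻¹ * w ^ k * g := by
        have := conj_zpow (i := k) (a := g⁻¹) (b := w)
        rw [inv_inv] at this
        exact this
      rw [h3, hk']
      group
    rw [this]
    exact Subgroup.zpow_mem _ h2 k

/-- In a group generated by `x`, `y` and a central subgroup `Z`, with `y x y⁻¹ = x⁻¹ z₂` for some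
`z₂ ∈ Z`, the commutator subgroup lies in the cyclic group generated by `x⁻¹ x⁻¹ z₂`. -/
theorem commutator_le_zpowers_of_gen {Γ : Type*} [Group Γ] (Z : Subgroup Γ)
    (hZc : Z ≤ Subgroup.center Γ) (x y z₂ : Γ) (hz₂ : z₂ ∈ Z) (hyx : y * x * y⁻¹ = x⁻¹ * z₂)
    (hgen : Subgroup.closure (insert x (insert y (Z : Set Γ))) = ⊤) :
    commutator Γ ≤ Subgroup.zpowers (x⁻¹ * x⁻¹ * z₂) := by
  have hcen : ∀ z ∈ Z, ∀ g : Γ, g * z = z * g := fun z hz => Subgroup.mem_center_iff.mp (hZc hz)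
  have hz₂c := hcen z₂ hz₂
  have hxw : x * (x⁻¹ * x⁻¹ * z₂) * x⁻¹ = x⁻¹ * x⁻¹ * z₂ := by
    calc x * (x⁻¹ * x⁻¹ * z₂) * x⁻¹ = x⁻¹ * (z₂ * x⁻¹) := by group
      _ = x⁻¹ * (x⁻¹ * z₂) := by rw [hz₂c x⁻¹]
      _ = x⁻¹ * x⁻¹ * z₂ := by group
  have hxw' : x⁻¹ * (x⁻¹ * x⁻¹ * z₂) * x = x⁻¹ * x⁻¹ * z₂ := by
    calc x⁻¹ * (x⁻¹ * x⁻¹ * z₂) * x = x⁻¹ * x⁻¹ * x⁻¹ * (z₂ * x) := by group
      _ = x⁻¹ * x⁻¹ * x⁻¹ * (x * z₂) := by rw [hz₂c x]
      _ = x⁻¹ * x⁻¹ * z₂ := by group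
  have hyxinv : y * x⁻¹ * y⁻¹ = z₂⁻¹ * x := by
    have h := congrArg (fun a => a⁻¹) hyx
    simp only [mul_inv_rev, inv_inv] at h
    rw [← mul_assoc] at h
    exact h
  have hyz : y * z₂ * y⁻¹ = z₂ := by
    rw [hz₂c y, mul_inv_cancel_right]
  have hyw : y * (x⁻¹ * x⁻¹ * z₂) * y⁻¹ = (x⁻¹ * x⁻¹ * z₂)⁻¹ := by
    calc y * (x⁻¹ * x⁻¹ * z₂) * y⁻¹
        = (y * x⁻¹ * y⁻¹) * (y * x⁻¹ * y⁻¹) * (y * z₂ * y⁻¹) := by group
      _ = (z₂⁻¹ * x) * (z₂⁻¹ * x) * z₂ := by rw [hyxinv, hyz]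
      _ = z₂⁻¹ * x * z₂⁻¹ * (x * z₂) := by group
      _ = z₂⁻¹ * x * z₂⁻¹ * (z₂ * x) := by rw [hz₂c x]
      _ = z₂⁻¹ * x * x := by simp [mul_assoc]
      _ = (x⁻¹ * x⁻¹ * z₂)⁻¹ := by simp [mul_assoc]
  have hyw' : y⁻¹ * (x⁻¹ * x⁻¹ * z₂) * y = (x⁻¹ * x⁻¹ * z₂)⁻¹ := by
    have h := congrArg (fun a => y⁻¹ * a⁻¹ * y) hyw
    simp only [mul_inv_rev, inv_inv] at h
    have h2 : y⁻¹ * (y * ((x⁻¹ * x⁻¹ * z₂)⁻¹ * y⁻¹)) * y = (x⁻¹ * x⁻¹ * z₂)⁻¹ := by group
    rw [← h2]
    simpa [mul_assoc] using h.symm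
  have hnorm : ∀ g ∈ insert x (insert y (Z : Set Γ)),
      g ∈ Subgroup.normalizer (Subgroup.zpowers (x⁻¹ * x⁻¹ * z₂) : Set Γ) := by
    intro g hg
    rcases hg with rfl | rfl | hgZ
    · apply mem_normalizer_zpowers
      · rw [hxw]
        exact Subgroup.mem_zpowers _
      · rw [hxw']
        exact Subgroup.mem_zpowers _
    · apply mem_normalizer_zpowers
      · rw [hyw]
        exact Subgroup.inv_mem _ (Subgroup.mem_zpowers _)
      · rw [hyw']
        exact Subgroup.inv_mem _ (Subgroup.mem_zpowers _)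
    · apply mem_normalizer_zpowers
      · rw [← hcen g hgZ (x⁻¹ * x⁻¹ * z₂), mul_inv_cancel_right]
        exact Subgroup.mem_zpowers _
      · rw [mul_assoc g⁻¹, hcen g hgZ (x⁻¹ * x⁻¹ * z₂), inv_mul_cancel_left]
        exact Subgroup.mem_zpowers _
  have hWn : (Subgroup.zpowers (x⁻¹ * x⁻¹ * z₂)).Normal := by
    rw [← Subgroup.normalizer_eq_top_iff, eq_top_iff, ← hgen, Subgroup.closure_le]
    exact hnorm
  refine commutator_le_of_gen_comm _ _ hgen ?_
  intro s hs t ht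
  have hcomm_of : ∀ a b : Γ, a * b = b * a → (a * b)⁻¹ * (b * a) ∈
      Subgroup.zpowers (x⁻¹ * x⁻¹ * z₂) := by
    intro a b hab
    rw [hab, inv_mul_cancel]
    exact Subgroup.one_mem _
  have hxy : (x * y)⁻¹ * (y * x) = (x⁻¹ * x⁻¹ * z₂)⁻¹ := by
    calc (x * y)⁻¹ * (y * x) = y⁻¹ * (x⁻¹ * (y * x * y⁻¹)) * y := by group
      _ = y⁻¹ * (x⁻¹ * (x⁻¹ * z₂)) * y := by rw [hyx]
      _ = y⁻¹ * (x⁻¹ * x⁻¹ * z₂) * y := by group
      _ = (x⁻¹ * x⁻¹ * z₂)⁻¹ := hyw'
  have hyx' : (y * x)⁻¹ * (x * y) = x⁻¹ * x⁻¹ * z₂ := by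
    have h := congrArg (fun a => a⁻¹) hxy
    simp only [mul_inv_rev, inv_inv] at h
    rw [← h]
    group
  rcases hs with rfl | rfl | hsZ
  · rcases ht with rfl | rfl | htZ
    · exact hcomm_of _ _ rfl
    · rw [hxy]
      exact Subgroup.inv_mem _ (Subgroup.mem_zpowers _)
    · exact hcomm_of _ _ (hcen t htZ s)
  · rcases ht with rfl | rfl | htZ
    · rw [hyx']
      exact Subgroup.mem_zpowers _
    · exact hcomm_of _ _ rfl
    · exact hcomm_of _ _ (hcen t htZ s)
  · exact hcomm_of _ _ (hcen s hsZ t).symm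

/-- If `y x y⁻¹ = x⁻¹ z₂` with `z₂` central and `y` commutes with `x ^ n`, then
`(x⁻¹ x⁻¹ z₂) ^ n = 1`. -/
theorem pow_eq_one_of_conj {Γ : Type*} [Group Γ] (x y z₂ : Γ)
    (hz₂ : z₂ ∈ Subgroup.center Γ) (hyx : y * x * y⁻¹ = x⁻¹ * z₂) (n : ℕ)
    (hn : y * x ^ n * y⁻¹ = x ^ n) : (x⁻¹ * x⁻¹ * z₂) ^ n = 1 := by
  have hz₂c : ∀ g : Γ, g * z₂ = z₂ * g := Subgroup.mem_center_iff.mp hz₂
  have hc1 : Commute x⁻¹ z₂ := hz₂c x⁻¹
  have hc2 : Commute x⁻¹ (x⁻¹ * z₂) := by
    change x⁻¹ * (x⁻¹ * z₂) = x⁻¹ * z₂ * x⁻¹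
    rw [mul_assoc, hz₂c x⁻¹]
  have h1 : (x⁻¹ * z₂) ^ n = x ^ n := by
    rw [← hyx, conj_pow, hn]
  have h2 : (x⁻¹ * x⁻¹ * z₂) ^ n = x⁻¹ ^ n * (x⁻¹ * z₂) ^ n := by
    rw [mul_assoc, hc2.mul_pow]
  rw [h2, h1, inv_pow, inv_mul_cancel]

/-- The data of a stem extension of a group generated by `a = σ x` and `b = σ y` with
`b a b⁻¹ = a⁻¹`: the kernel lies in the cyclic group generated by an element `w` over `a⁻¹ a⁻¹`,
and `w ^ n = 1` whenever `y` commutes with `x ^ n`. -/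
theorem stem_ker_le_zpowers {Γ : Type u} {G : Type v} [Group Γ] [Group G] (σ : Γ →* G)
    (hst : Cfsg.IsStemExtension σ) (x y : Γ)
    (hgen : Subgroup.closure ({σ x, σ y} : Set G) = ⊤)
    (hrel : σ y * σ x * (σ y)⁻¹ = (σ x)⁻¹) :
    ∃ w : Γ, σ w = (σ x)⁻¹ * (σ x)⁻¹ ∧ σ.ker ≤ Subgroup.zpowers w ∧
      ∀ n : ℕ, y * x ^ n * y⁻¹ = x ^ n → w ^ n = 1 := by
  obtain ⟨hsurj, hcen, hcomm⟩ := hst
  have hz₂ : x * (y * x * y⁻¹) ∈ σ.ker := by
    rw [MonoidHom.mem_ker, map_mul, map_mul, map_mul, map_inv, hrel, mul_inv_cancel]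
  have hyx : y * x * y⁻¹ = x⁻¹ * (x * (y * x * y⁻¹)) := by group
  have hgenΓ : Subgroup.closure (insert x (insert y (σ.ker : Set Γ))) = ⊤ := by
    apply eq_top_of_ker_le_of_map_eq_top σ
    · intro k hk
      exact Subgroup.subset_closure (Set.mem_insert_of_mem _ (Set.mem_insert_of_mem _ hk))
    · rw [eq_top_iff, ← hgen, Subgroup.closure_le]
      intro g hg
      rcases hg with rfl | hg
      · exact ⟨x, Subgroup.subset_closure (Set.mem_insert _ _), rfl⟩
      · rw [Set.mem_singleton_iff] at hg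
        subst hg
        exact ⟨y, Subgroup.subset_closure (Set.mem_insert_of_mem _ (Set.mem_insert _ _)), rfl⟩
  refine ⟨x⁻¹ * x⁻¹ * (x * (y * x * y⁻¹)), ?_, ?_, ?_⟩
  · rw [map_mul, MonoidHom.mem_ker.mp hz₂, mul_one, map_mul, map_inv]
  · exact hcomm.trans (commutator_le_zpowers_of_gen σ.ker hcen x y _ hz₂ hyx hgenΓ)
  · intro n hn
    exact pow_eq_one_of_conj x y _ (hcen hz₂) hyx n hn

/-- Trivial multiplier: it suffices that every finite stem extension has trivial kernel. -/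
theorem hasCyclicSchurMultiplier_one_of {G : Type u} [Group G] [Finite G]
    (h : ∀ (Γ : Type u) [Group Γ] [Finite Γ] (σ : Γ →* G), Cfsg.IsStemExtension σ → σ.ker = ⊥) :
    Cfsg.HasCyclicSchurMultiplier G 1 := by
  constructor
  · refine ⟨G, inferInstance, inferInstance, MonoidHom.id G, ?_, ?_⟩
    · refine ⟨Function.surjective_id, ?_, ?_⟩
      · rw [MonoidHom.ker_id]
        exact bot_le
      · rw [MonoidHom.ker_id]
        exact bot_le
    · have hsub : Subsingleton (MonoidHom.id G).ker := by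
        rw [MonoidHom.ker_id]
        infer_instance
      have hsub2 : Subsingleton (Multiplicative (ZMod 1)) :=
        inferInstanceAs (Subsingleton (ZMod 1))
      exact ⟨{ toFun := fun _ => 1
               invFun := fun _ => 1
               left_inv := fun a => Subsingleton.elim _ _
               right_inv := fun a => Subsingleton.elim _ _
               map_mul' := fun a b => Subsingleton.elim _ _ }⟩
  · intro Γ _ _ σ hσ
    have hk := h Γ σ hσ
    refine ⟨1, ?_⟩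
    intro k
    refine ⟨1, ?_⟩
    have hk1 : (k : Γ) = 1 := by
      have hkb : (k : Γ) ∈ (⊥ : Subgroup Γ) := hk ▸ k.2
      exact Subgroup.mem_bot.mp hkb
    exact Subtype.ext hk1.symm

/-- A homomorphism from `Multiplicative (ZMod 2)` onto a group with at most the two elements
`1`, `u`, where `u * u = 1`. -/
theorem exists_surjective_zmod_two {K : Type*} [Group K] (u : K) (hu : u * u = 1)
    (hK : ∀ k : K, k = 1 ∨ k = u) :
    ∃ π : Multiplicative (ZMod 2) →* K, Function.Surjective π := by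
  have hf : (2 : ℕ) • (Additive.ofMul u) = 0 := by
    rw [two_nsmul]
    exact congrArg Additive.ofMul hu
  let f : ZMod 2 →+ Additive K :=
    ZMod.lift 2 ⟨zmultiplesHom (Additive K) (Additive.ofMul u), by
      rw [zmultiplesHom_apply]
      exact_mod_cast hf⟩
  have hf1 : f 1 = Additive.ofMul u := by
    have := ZMod.lift_coe 2 (⟨zmultiplesHom (Additive K) (Additive.ofMul u), by
      rw [zmultiplesHom_apply]
      exact_mod_cast hf⟩ : {f : ℤ →+ Additive K // f (2 : ℕ) = 0}) 1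
    simpa [f] using this
  refine ⟨AddMonoidHom.toMultiplicativeLeft f, ?_⟩
  intro k
  rcases hK k with rfl | rfl
  · exact ⟨1, map_one _⟩
  · exact ⟨Multiplicative.ofAdd 1, hf1⟩

theorem dihedral_closure_eq_top (n : ℕ) [NeZero n] :
    Subgroup.closure ({DihedralGroup.r 1, DihedralGroup.sr 0} : Set (DihedralGroup n)) = ⊤ := by
  rw [eq_top_iff]
  intro g _
  have hr : ∀ i : ZMod n, (DihedralGroup.r i : DihedralGroup n) ∈
      Subgroup.closure ({DihedralGroup.r 1, DihedralGroup.sr 0} : Set (DihedralGroup n)) := by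
    intro i
    have h1 : (DihedralGroup.r 1 : DihedralGroup n) ^ i.val = DihedralGroup.r i := by
      rw [DihedralGroup.r_one_pow, ZMod.natCast_zmod_val]
    rw [← h1]
    exact Subgroup.pow_mem _ (Subgroup.subset_closure (Set.mem_insert _ _)) _
  cases g with
  | r i => exact hr i
  | sr i =>
    have h2 : (DihedralGroup.sr i : DihedralGroup n) = DihedralGroup.sr 0 * DihedralGroup.r i := by
      rw [DihedralGroup.sr_mul_r, zero_add]
    rw [h2]
    exact Subgroup.mul_mem _ (Subgroup.subset_closure (Set.mem_insert_of_mem _ rfl)) (hr i)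

theorem dihedral_rel (n : ℕ) :
    (DihedralGroup.sr 0 : DihedralGroup n) * DihedralGroup.r 1 * (DihedralGroup.sr 0)⁻¹ =
      (DihedralGroup.r 1)⁻¹ := by
  simp

theorem quaternion_closure_eq_top (n : ℕ) [NeZero n] :
    Subgroup.closure ({QuaternionGroup.a 1, QuaternionGroup.xa 0} : Set (QuaternionGroup n)) = ⊤ := by
  rw [eq_top_iff]
  intro g _
  have hr : ∀ i : ZMod (2 * n), (QuaternionGroup.a i : QuaternionGroup n) ∈
      Subgroup.closure ({QuaternionGroup.a 1, QuaternionGroup.xa 0} : Set (QuaternionGroup n)) := by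
    intro i
    have h1 : (QuaternionGroup.a 1 : QuaternionGroup n) ^ i.val = QuaternionGroup.a i := by
      rw [QuaternionGroup.a_one_pow, ZMod.natCast_zmod_val]
    rw [← h1]
    exact Subgroup.pow_mem _ (Subgroup.subset_closure (Set.mem_insert _ _)) _
  cases g with
  | a i => exact hr i
  | xa i =>
    have h2 : (QuaternionGroup.xa i : QuaternionGroup n) = QuaternionGroup.xa 0 * QuaternionGroup.a i := by
      rw [QuaternionGroup.xa_mul_a, zero_add]
    rw [h2]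
    exact Subgroup.mul_mem _ (Subgroup.subset_closure (Set.mem_insert_of_mem _ rfl)) (hr i)

theorem quaternion_two_n (n : ℕ) : (n : ZMod (2 * n)) + n = 0 := by
  have h : ((2 * n : ℕ) : ZMod (2 * n)) = 0 := ZMod.natCast_self (2 * n)
  rw [← h]
  push_cast
  ring

theorem quaternion_rel (n : ℕ) :
    (QuaternionGroup.xa 0 : QuaternionGroup n) * QuaternionGroup.a 1 * (QuaternionGroup.xa 0)⁻¹ =
      (QuaternionGroup.a 1)⁻¹ := by
  have h1 : (QuaternionGroup.xa 0 : QuaternionGroup n)⁻¹ = QuaternionGroup.xa n := by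
    apply inv_eq_of_mul_eq_one_right
    rw [QuaternionGroup.xa_mul_xa, sub_zero, quaternion_two_n, QuaternionGroup.a_zero]
  have h2 : (QuaternionGroup.a 1 : QuaternionGroup n)⁻¹ = QuaternionGroup.a (-1) := by
    apply inv_eq_of_mul_eq_one_right
    rw [QuaternionGroup.a_mul_a, add_neg_cancel, QuaternionGroup.a_zero]
  rw [h1, h2, QuaternionGroup.xa_mul_a, QuaternionGroup.xa_mul_xa, zero_add, quaternion_two_n, zero_sub]

end Cfsg.Agent.Lib.Helper29
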