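import Mathlib
import Cfsg.Prelude.Def_SubgroupEmbedding
import Cfsg.Agent.Lib.Helper64.BaerSuzuki
import Cfsg.Agent.Lib.Helper29.Stem

/-!
Sidki pairs of order at most 4 (from the Baer–Suzuki theorem): tools for involutions inverting
elements of odd order.
-/

set_option autoImplicit false

namespace Cfsg.Agent.Lib.Helper29

/-- An element of odd order with trivial square is trivial. -/
theorem eq_one_of_odd_of_sq {G : Type*} [Group G] (y : G) (ho : Odd (orderOf y))
    (h : y * y = 1) : y = 1 := by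
  have h2 : y ^ 2 = 1 := by rw [pow_two]; exact h
  have hd : orderOf y ∣ 2 := orderOf_dvd_of_pow_eq_one h2
  have h1 : orderOf y = 1 := by
    rcases (Nat.dvd_prime Nat.prime_two).mp hd with h1 | h1
    · exact h1
    · rw [h1] at ho; exact absurd ho (by decide)
  exact orderOf_eq_one_iff.mp h1

/-- An element of odd order inverted and centralized by the same element is trivial. -/
theorem eq_one_of_inv_of_comm {G : Type*} [Group G] (v y : G) (ho : Odd (orderOf y))
    (hinv : v * y * v⁻¹ = y⁻¹) (hc : v * y = y * v) : y = 1 := by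
  apply eq_one_of_odd_of_sq y ho
  rw [hc, mul_inv_cancel_right] at hinv
  calc y * y = y * y⁻¹ := by rw [← hinv]
    _ = 1 := mul_inv_cancel y

/-- A square root inside `⟨h⟩` of an element `h` of odd order. -/
theorem exists_sq_root_of_odd {G : Type*} [Group G] (h : G) (ho : Odd (orderOf h)) :
    ∃ m : ℕ, h ^ m * h ^ m = h := by
  obtain ⟨j, hj⟩ := ho
  refine ⟨j + 1, ?_⟩
  rw [← pow_add]
  have : j + 1 + (j + 1) = orderOf h + 1 := by omega
  rw [this, pow_add, pow_orderOf_eq_one, one_mul, pow_one]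

/-- If the square of an element `h` of odd order commutes with `k`, so does `h`. -/
theorem comm_of_sq_comm {G : Type*} [Group G] (h k : G) (ho : Odd (orderOf h))
    (hc : (h * h) * k = k * (h * h)) : h * k = k * h := by
  obtain ⟨j, hj⟩ := ho
  have h1 : h = (h * h) ^ (j + 1) := by
    rw [← pow_two, ← pow_mul]
    have : 2 * (j + 1) = orderOf h + 1 := by omega
    rw [this, pow_add, pow_orderOf_eq_one, one_mul, pow_one]
  have h2 : Commute (h * h) k := hc
  have h3 : Commute ((h * h) ^ (j + 1)) k := h2.pow_left _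
  rw [← h1] at h3
  exact h3

/-- An involution inverting no nontrivial element of odd order lies in `O₂(G)`
(from the Baer–Suzuki theorem). -/
theorem mem_pCore_two_of_no_inv {G : Type*} [Group G] [Finite G] (b : G) (hb : b * b = 1)
    (hno : ∀ k : G, Odd (orderOf k) → b * k * b⁻¹ = k⁻¹ → k = 1) : b ∈ Cfsg.pCore 2 G := by
  have : Fact (Nat.Prime 2) := ⟨Nat.prime_two⟩
  apply Cfsg.Agent.Lib.Helper64.baerSuzuki_mem_pCore 2 b
  intro g
  have hbinv : b⁻¹ = b := inv_eq_of_mul_eq_one_right hb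
  have ht : (g * b * g⁻¹) * (g * b * g⁻¹) = 1 := by
    calc (g * b * g⁻¹) * (g * b * g⁻¹) = g * (b * b) * g⁻¹ := by group
      _ = 1 := by rw [hb]; group
  have htinv : (g * b * g⁻¹)⁻¹ = g * b * g⁻¹ := inv_eq_of_mul_eq_one_right ht
  -- y = b * t is inverted by b
  have hy : b * (b * (g * b * g⁻¹)) * b⁻¹ = (b * (g * b * g⁻¹))⁻¹ := by
    rw [mul_inv_rev, htinv, hbinv, ← mul_assoc, hb, one_mul]
  obtain ⟨e, m, hm, hn⟩ := Nat.exists_eq_two_pow_mul_odd
    (orderOf_pos (b * (g * b * g⁻¹))).ne'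
  have hz : (b * (g * b * g⁻¹)) ^ (2 ^ e) = 1 := by
    apply hno
    · have h1 : ((b * (g * b * g⁻¹)) ^ (2 ^ e)) ^ m = 1 := by
        rw [← pow_mul, ← hn, pow_orderOf_eq_one]
      exact hm.of_dvd_nat (orderOf_dvd_of_pow_eq_one h1)
    · rw [← conj_pow, hy, inv_pow]
  have hp1 : IsPGroup 2 (Subgroup.zpowers (b * (g * b * g⁻¹))) := by
    obtain ⟨j, -, hj⟩ := (Nat.dvd_prime_pow Nat.prime_two).mp (orderOf_dvd_of_pow_eq_one hz)
    exact IsPGroup.of_card (n := j) (by rw [Nat.card_zpowers, hj])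
  have hp2 : IsPGroup 2 (Subgroup.zpowers b) := by
    have hb2 : b ^ (2 ^ 1) = 1 := by rw [pow_one, pow_two]; exact hb
    obtain ⟨j, -, hj⟩ := (Nat.dvd_prime_pow Nat.prime_two).mp (orderOf_dvd_of_pow_eq_one hb2)
    exact IsPGroup.of_card (n := j) (by rw [Nat.card_zpowers, hj])
  have hnorm : Subgroup.zpowers b ≤
      Subgroup.normalizer ((Subgroup.zpowers (b * (g * b * g⁻¹)) : Subgroup G) : Set G) := by
    rw [Subgroup.zpowers_le]
    apply Cfsg.Agent.Lib.Helper29.mem_normalizer_zpowers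
    · rw [hy]
      exact Subgroup.inv_mem _ (Subgroup.mem_zpowers _)
    · have : b⁻¹ * (b * (g * b * g⁻¹)) * b = (b * (g * b * g⁻¹))⁻¹ := by
        rw [mul_inv_rev, htinv, hbinv, ← mul_assoc, hb, one_mul]
      rw [this]
      exact Subgroup.inv_mem _ (Subgroup.mem_zpowers _)
  have hsup := hp2.to_sup_of_normal_right' hp1 hnorm
  refine hsup.to_le ?_
  rw [Subgroup.closure_le]
  intro z hz'
  rcases hz' with rfl | hz'
  · exact Subgroup.mem_sup_left (Subgroup.mem_zpowers _)
  · rw [Set.mem_singleton_iff] at hz'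
    subst hz'
    have hmem : b⁻¹ * (b * (g * b * g⁻¹)) ∈
        Subgroup.zpowers b ⊔ Subgroup.zpowers (b * (g * b * g⁻¹)) :=
      Subgroup.mul_mem _ (Subgroup.mem_sup_left (Subgroup.inv_mem _ (Subgroup.mem_zpowers _)))
        (Subgroup.mem_sup_right (Subgroup.mem_zpowers _))
    rw [inv_mul_cancel_left] at hmem
    exact hmem

theorem orderOf_conj' {G : Type*} [Group G] (g a : G) : orderOf (g * a * g⁻¹) = orderOf a := by
  have h : SemiconjBy g a (g * a * g⁻¹) := by unfold SemiconjBy; group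
  exact h.orderOf_eq.symm

/-- The key step for Sidki four-groups: if `a` inverts `h ≠ 1` and `b` centralizes `h`, then `b`
inverts no nontrivial element of odd order centralized by `a`. -/
theorem sidki_core {G : Type*} [Group G] (V : Subgroup G) (hS : Cfsg.IsSidkiPair V)
    (a b : G) (ha : a ∈ V) (hb : b ∈ V) (hb2 : b * b = 1)
    (hV : ∀ w ∈ V, w = 1 ∨ w = a ∨ w = b ∨ w = a * b)
    (h k : G) (hho : Odd (orderOf h)) (hko : Odd (orderOf k)) (hh1 : h ≠ 1)
    (hah : a * h * a⁻¹ = h⁻¹) (hbh : b * h = h * b)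
    (hbk : b * k * b⁻¹ = k⁻¹) (hak : a * k = k * a) : k = 1 := by
  obtain ⟨m, hxx⟩ := exists_sq_root_of_odd h hho
  have hax : a * h ^ m * a⁻¹ = (h ^ m)⁻¹ := by rw [← conj_pow, hah, inv_pow]
  have hbx : b * h ^ m = h ^ m * b := (Commute.pow_right (show Commute b h from hbh) m)
  have hbxi : (h ^ m)⁻¹ * b⁻¹ = b⁻¹ * (h ^ m)⁻¹ := by
    rw [← mul_inv_rev, ← mul_inv_rev, hbx]
  have hbk' : b * (h ^ m * k * (h ^ m)⁻¹) * b⁻¹ = (h ^ m * k * (h ^ m)⁻¹)⁻¹ := by
    calc b * (h ^ m * k * (h ^ m)⁻¹) * b⁻¹ = (b * h ^ m) * k * ((h ^ m)⁻¹ * b⁻¹) := by group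
      _ = (h ^ m * b) * k * (b⁻¹ * (h ^ m)⁻¹) := by rw [hbx, hbxi]
      _ = h ^ m * (b * k * b⁻¹) * (h ^ m)⁻¹ := by group
      _ = h ^ m * k⁻¹ * (h ^ m)⁻¹ := by rw [hbk]
      _ = (h ^ m * k * (h ^ m)⁻¹)⁻¹ := by group
  have hko' : Odd (orderOf (h ^ m * k * (h ^ m)⁻¹)) := by rw [orderOf_conj']; exact hko
  -- `c = a * b` inverts `h` and `k`
  have hch : (a * b) * h * (a * b)⁻¹ = h⁻¹ := by
    calc (a * b) * h * (a * b)⁻¹ = a * ((b * h) * b⁻¹) * a⁻¹ := by group
      _ = a * h * a⁻¹ := by rw [hbh, mul_inv_cancel_right]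
      _ = h⁻¹ := hah
  have haki : a * k⁻¹ * a⁻¹ = k⁻¹ := by
    have : a * k⁻¹ = k⁻¹ * a := (Commute.inv_right (show Commute a k from hak))
    rw [this, mul_inv_cancel_right]
  have hck : (a * b) * k * (a * b)⁻¹ = k⁻¹ := by
    calc (a * b) * k * (a * b)⁻¹ = a * (b * k * b⁻¹) * a⁻¹ := by group
      _ = a * k⁻¹ * a⁻¹ := by rw [hbk]
      _ = k⁻¹ := haki
  have e1 : (h ^ m)⁻¹ * a = a * h ^ m := by
    calc (h ^ m)⁻¹ * a = (a * h ^ m * a⁻¹) * a := by rw [hax]
      _ = a * h ^ m := by group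
  obtain ⟨w, hwV, hw1, hwc⟩ := hS (h ^ m * k * (h ^ m)⁻¹) b hb hko' hbk'
  rcases hV w hwV with rfl | rfl | rfl | rfl
  · exact absurd rfl hw1
  · -- `a h` centralizes `k`, so `h` and `k` commute
    have e2 : w * h * k = w * (k * h) := by
      calc w * h * k = w * (h ^ m * h ^ m) * k := by rw [hxx]
        _ = ((h ^ m)⁻¹ * w) * h ^ m * k := by rw [e1]; group
        _ = (h ^ m)⁻¹ * (w * (h ^ m * k * (h ^ m)⁻¹)) * h ^ m := by group
        _ = (h ^ m)⁻¹ * ((h ^ m * k * (h ^ m)⁻¹) * w) * h ^ m := by rw [hwc]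
        _ = k * (((h ^ m)⁻¹ * w) * h ^ m) := by group
        _ = k * (w * h ^ m * h ^ m) := by rw [e1]
        _ = (k * w) * (h ^ m * h ^ m) := by group
        _ = (w * k) * h := by rw [← hak, hxx]
        _ = w * (k * h) := by group
    have hhk : h * k = k * h := by
      have := congrArg (fun t => w⁻¹ * t) e2
      simpa [mul_assoc] using this
    have hinv : (w * b) * (h * k) * (w * b)⁻¹ = (h * k)⁻¹ := by
      calc (w * b) * (h * k) * (w * b)⁻¹
          = ((w * b) * h * (w * b)⁻¹) * ((w * b) * k * (w * b)⁻¹) := by group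
        _ = h⁻¹ * k⁻¹ := by rw [hch, hck]
        _ = (k * h)⁻¹ := by group
        _ = (h * k)⁻¹ := by rw [hhk]
    have hodd : Odd (orderOf (h * k)) := by
      have h1 : orderOf (h * k) ∣ orderOf h * orderOf k :=
        (Commute.orderOf_mul_dvd_lcm (show Commute h k from hhk)).trans (Nat.lcm_dvd_mul _ _)
      exact (hho.mul hko).of_dvd_nat h1
    obtain ⟨w', hw'V, hw'1, hw'c⟩ := hS (h * k) (w * b) (V.mul_mem ha hb) hodd hinv
    rcases hV w' hw'V with rfl | rfl | rfl | rfl
    · exact absurd rfl hw'1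
    · -- `a` commutes with `h k`: then `h = 1`
      exfalso
      apply hh1
      apply eq_one_of_odd_of_sq h hho
      have e3 : w' * h = h⁻¹ * w' := by
        calc w' * h = (w' * h * w'⁻¹) * w' := by group
          _ = h⁻¹ * w' := by rw [hah]
      have e4 : h⁻¹ * (k * w') = h * (k * w') := by
        calc h⁻¹ * (k * w') = (h⁻¹ * w') * k := by rw [← hak]; group
          _ = (w' * h) * k := by rw [e3]
          _ = w' * (h * k) := by group
          _ = h * k * w' := hw'c
          _ = h * (k * w') := by group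
      have e5 : h⁻¹ = h := mul_right_cancel e4
      calc h * h = h * h⁻¹ := by rw [e5]
        _ = 1 := mul_inv_cancel h
    · -- `b` commutes with `h k`: then `k = k⁻¹`
      apply eq_one_of_odd_of_sq k hko
      have e3 : w' * k = k⁻¹ * w' := by
        calc w' * k = (w' * k * w'⁻¹) * w' := by group
          _ = k⁻¹ * w' := by rw [hbk]
      have e4 : h * (k⁻¹ * w') = h * (k * w') := by
        calc h * (k⁻¹ * w') = h * (w' * k) := by rw [e3]
          _ = (h * w') * k := by group
          _ = (w' * h) * k := by rw [hbh]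
          _ = w' * (h * k) := by group
          _ = h * k * w' := hw'c
          _ = h * (k * w') := by group
      have e5 : k⁻¹ = k := mul_right_cancel (mul_left_cancel e4)
      calc k * k = k * k⁻¹ := by rw [e5]
        _ = 1 := mul_inv_cancel k
    · -- `a b` commutes with and inverts `h k`
      have e3 : h * k = 1 := eq_one_of_inv_of_comm _ _ hodd hinv hw'c
      have e4 : k = h⁻¹ := (inv_eq_of_mul_eq_one_right e3).symm
      apply eq_one_of_inv_of_comm b k hko hbk
      rw [e4]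
      exact (Commute.inv_right (show Commute b h from hbh))
  · -- `b` commutes with the conjugate of `k` that it inverts
    have e2 := eq_one_of_inv_of_comm _ _ hko' hbk' hwc
    exact conj_eq_one_iff.mp e2
  · -- `a b h` centralizes `k`, so `h` inverts `k`
    have e2 : (h ^ m)⁻¹ * (a * b) * h ^ m = a * b * h := by
      calc (h ^ m)⁻¹ * (a * b) * h ^ m = ((h ^ m)⁻¹ * a) * (b * h ^ m) := by group
        _ = (a * h ^ m) * (h ^ m * b) := by rw [e1, hbx]
        _ = a * (h ^ m * h ^ m) * b := by group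
        _ = a * (h * b) := by rw [hxx]; group
        _ = a * (b * h) := by rw [hbh]
        _ = a * b * h := by group
    have e3 : (a * b * h) * k = k * (a * b * h) := by
      calc (a * b * h) * k = ((h ^ m)⁻¹ * (a * b) * h ^ m) * k := by rw [e2]
        _ = (h ^ m)⁻¹ * ((a * b) * (h ^ m * k * (h ^ m)⁻¹)) * h ^ m := by group
        _ = (h ^ m)⁻¹ * ((h ^ m * k * (h ^ m)⁻¹) * (a * b)) * h ^ m := by rw [hwc]
        _ = k * ((h ^ m)⁻¹ * (a * b) * h ^ m) := by group
        _ = k * (a * b * h) := by rw [e2]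
    have e4 : h * k * h⁻¹ = k⁻¹ := by
      have e5 : (a * b)⁻¹ * k * (a * b) = k⁻¹ := by
        calc (a * b)⁻¹ * k * (a * b)
            = (a * b)⁻¹ * ((a * b) * k * (a * b)⁻¹)⁻¹ * (a * b) := by rw [hck, inv_inv]
          _ = k⁻¹ := by group
      calc h * k * h⁻¹ = (a * b)⁻¹ * ((a * b * h) * k) * h⁻¹ := by group
        _ = (a * b)⁻¹ * (k * (a * b * h)) * h⁻¹ := by rw [e3]
        _ = (a * b)⁻¹ * k * (a * b) := by group
        _ = k⁻¹ := e5
    have e6 : h * k = k⁻¹ * h := by
      calc h * k = (h * k * h⁻¹) * h := by group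
        _ = k⁻¹ * h := by rw [e4]
    have e7 : h * k⁻¹ = k * h := by
      have := congrArg (fun t => t⁻¹) e4
      simp only [mul_inv_rev, inv_inv] at this
      calc h * k⁻¹ = (h * (k⁻¹ * h⁻¹)) * h := by group
        _ = k * h := by rw [this]
    have e8 : (h * h) * k = k * (h * h) := by
      calc (h * h) * k = h * (h * k) := by group
        _ = h * (k⁻¹ * h) := by rw [e6]
        _ = (h * k⁻¹) * h := by group
        _ = (k * h) * h := by rw [e7]
        _ = k * (h * h) := by group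
    have e9 : h * k = k * h := comm_of_sq_comm h k hho e8
    apply eq_one_of_odd_of_sq k hko
    have e10 : k⁻¹ = k := by
      have : k⁻¹ * h = k * h := by rw [← e6, e9]
      exact mul_right_cancel this
    calc k * k = k * k⁻¹ := by rw [e10]
      _ = 1 := mul_inv_cancel k

/-- A subgroup of order at most 4 containing distinct nontrivial involutions `a`, `b` is
`{1, a, b, a b}`. -/
theorem four_group_elements {G : Type*} [Group G] (V : Subgroup G) [Finite V]
    (h4 : Nat.card V ≤ 4) (a b : G) (haV : a ∈ V) (hbV : b ∈ V) (ha1 : a ≠ 1) (hb1 : b ≠ 1)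
    (hab : a ≠ b) (hb2 : b * b = 1) :
    ∀ w ∈ V, w = 1 ∨ w = a ∨ w = b ∨ w = a * b := by
  have hab1 : a * b ≠ 1 := by
    intro h1
    apply hab
    have h2 : a = b⁻¹ := eq_inv_of_mul_eq_one_left h1
    rw [h2]
    exact inv_eq_of_mul_eq_one_right hb2
  let f : Fin 4 → V := ![1, ⟨a, haV⟩, ⟨b, hbV⟩, ⟨a * b, V.mul_mem haV hbV⟩]
  have hf : Function.Injective f := by
    intro i j hij
    have hij' : (f i : G) = (f j : G) := congrArg Subtype.val hij
    fin_cases i <;> fin_cases j <;>
      simp [f, ha1, hb1, hab, hab1, Ne.symm ha1, Ne.symm hb1, Ne.symm hab, Ne.symm hab1] at hij' ⊢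
  have hbij : Function.Bijective f :=
    hf.bijective_of_nat_card_le (by rw [Nat.card_fin]; exact h4)
  intro w hw
  obtain ⟨i, hi⟩ := hbij.2 ⟨w, hw⟩
  have hi' : (f i : G) = w := congrArg Subtype.val hi
  fin_cases i
  · left; exact hi'.symm
  · right; left; exact hi'.symm
  · right; right; left; exact hi'.symm
  · right; right; right; exact hi'.symm

end Cfsg.Agent.Lib.Helper29
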