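import Mathlib
import Cfsg.Agent.Lib.Helper1.Tools

/-!
# Fewer than `p²` Sylow `p`-subgroups

If a finite group has fewer than `p ^ 2` Sylow `p`-subgroups then any two distinct Sylow
`p`-subgroups meet in a subgroup of index `p`, and all Sylow `p`-subgroups contain the
intersection of any two of them (a counting argument on the "lines" of Sylow subgroups).
-/

set_option autoImplicit false

namespace Cfsg.Agent.Lib.Helper29.SylNum

open scoped Pointwise

universe u

variable {S : Type u} [Group S] [Finite S] {p : ℕ} [Fact p.Prime]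

theorem stab_eq (A B : Sylow p S) :
    MulAction.stabilizer (↥(A : Subgroup S)) B = (B : Subgroup S).subgroupOf A := by
  ext x
  rw [MulAction.mem_stabilizer_iff, Subgroup.mem_subgroupOf]
  have h1 : x • B = B ↔ (x : S) ∈ Subgroup.normalizer ((B : Subgroup S) : Set S) :=
    Sylow.smul_eq_iff_mem_normalizer
  rw [h1]
  constructor
  · intro h
    have h2 : (x : S) ∈ (A : Subgroup S) ⊓ Subgroup.normalizer ((B : Subgroup S) : Set S) :=
      ⟨x.2, h⟩
    have h3 : (x : S) ∈ (A : Subgroup S) ⊓ (B : Subgroup S) := by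
      rw [← IsPGroup.inf_normalizer_sylow A.2 B]; exact h2
    exact h3.2
  · intro h
    exact Subgroup.le_normalizer h

/-- The orbit of `B` under conjugation by `A`, as a finset. -/
noncomputable def orbF (A B : Sylow p S) : Finset (Sylow p S) :=
  (Set.toFinite (MulAction.orbit (↥(A : Subgroup S)) B)).toFinset

theorem mem_orbF {A B Y : Sylow p S} :
    Y ∈ orbF A B ↔ ∃ x ∈ (A : Subgroup S), x • B = Y := by
  unfold orbF
  rw [Set.Finite.mem_toFinset, MulAction.mem_orbit_iff]
  constructor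
  · rintro ⟨x, rfl⟩; exact ⟨x, x.2, rfl⟩
  · rintro ⟨x, hx, rfl⟩; exact ⟨⟨x, hx⟩, rfl⟩

theorem smul_ne {A B : Sylow p S} (hAB : A ≠ B) {x : S} (hx : x ∈ (A : Subgroup S)) :
    x • B ≠ A := by
  intro e
  have h3 : x⁻¹ • A = A :=
    Sylow.smul_eq_iff_mem_normalizer.mpr (Subgroup.le_normalizer (Subgroup.inv_mem _ hx))
  apply hAB
  rw [← h3, ← e, inv_smul_smul]

theorem card_eq (A B : Sylow p S) :
    Nat.card (A : Subgroup S) = Nat.card (B : Subgroup S) := by
  rw [A.card_eq_multiplicity, B.card_eq_multiplicity]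

theorem relIndex_eq (hn : Nat.card (Sylow p S) < p ^ 2) {A B : Sylow p S} (hAB : A ≠ B) :
    (B : Subgroup S).relIndex A = p ∧ (orbF A B).card = p := by
  classical
  have hp : p.Prime := Fact.out
  have h1 : (B : Subgroup S).relIndex A = (MulAction.orbit (↥(A : Subgroup S)) B).ncard := by
    rw [← MulAction.index_stabilizer, stab_eq]; rfl
  have h2 : (MulAction.orbit (↥(A : Subgroup S)) B).ncard = (orbF A B).card :=
    Set.ncard_eq_toFinset_card _ _
  have hA : A ∉ orbF A B := by
    rw [mem_orbF]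
    rintro ⟨x, hx, e⟩
    exact smul_ne hAB hx e
  have h4 : (orbF A B).card + 1 ≤ Nat.card (Sylow p S) := by
    haveI := Fintype.ofFinite (Sylow p S)
    have h0 := Finset.card_le_univ (insert A (orbF A B))
    rwa [Finset.card_insert_of_notMem hA, ← Nat.card_eq_fintype_card] at h0
  have h5 : (B : Subgroup S).relIndex A < p ^ 2 := by rw [h1, h2]; omega
  have h6 : (B : Subgroup S).relIndex A ∣ Nat.card (A : Subgroup S) :=
    Subgroup.relIndex_dvd_card _ _
  obtain ⟨n, hn'⟩ := IsPGroup.iff_card.mp A.2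
  rw [hn'] at h6
  obtain ⟨i, -, hi'⟩ := (Nat.dvd_prime_pow hp).mp h6
  have hi2 : i < 2 := by
    by_contra hcon
    have h7 : p ^ 2 ≤ p ^ i := Nat.pow_le_pow_right hp.pos (not_lt.mp hcon)
    rw [hi'] at h5
    exact absurd h5 (not_lt.mpr h7)
  have hi0 : i ≠ 0 := by
    rintro rfl
    rw [pow_zero] at hi'
    have h7 : (A : Subgroup S) ≤ B := Subgroup.relIndex_eq_one.mp hi'
    exact hAB (Sylow.ext (A.3 B.2 h7).symm)
  have hi1 : i = 1 := by omega
  rw [hi1, pow_one] at hi'
  exact ⟨hi', by rw [← h2, ← h1, hi']⟩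

theorem card_inf (hn : Nat.card (Sylow p S) < p ^ 2) {A B : Sylow p S} (hAB : A ≠ B) :
    Nat.card ((A : Subgroup S) ⊓ B : Subgroup S) * p = Nat.card (A : Subgroup S) := by
  have h1 := Helper1.card_eq_card_mul_relIndex
    (inf_le_left : (A : Subgroup S) ⊓ (B : Subgroup S) ≤ A)
  rw [Subgroup.inf_relIndex_left, (relIndex_eq hn hAB).1] at h1
  exact h1.symm

theorem orb_prop (hn : Nat.card (Sylow p S) < p ^ 2) {A B Y : Sylow p S} (hAB : A ≠ B)
    (hY : Y ∈ orbF A B) : Y ≠ A ∧ (A : Subgroup S) ⊓ Y = (A : Subgroup S) ⊓ B := by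
  have hp : p.Prime := Fact.out
  obtain ⟨x, hx, rfl⟩ := mem_orbF.mp hY
  have hYA : x • B ≠ A := smul_ne hAB hx
  refine ⟨hYA, ?_⟩
  have hidx : ((B : Subgroup S).subgroupOf A).index = (Nat.card (A : Subgroup S)).minFac := by
    have h1 := card_inf hn hAB
    obtain ⟨n, hn'⟩ := IsPGroup.iff_card.mp A.2
    have hn0 : n ≠ 0 := by
      rintro rfl
      rw [pow_zero] at hn'
      rw [hn'] at h1
      exact hp.ne_one (Nat.eq_one_of_mul_eq_one_left h1)
    rw [hn', hp.pow_minFac hn0]
    exact (relIndex_eq hn hAB).1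
  have hnorm : ((B : Subgroup S).subgroupOf A).Normal :=
    Subgroup.normal_of_index_eq_minFac_card hidx
  have hle : (A : Subgroup S) ⊓ B ≤ (A : Subgroup S) ⊓ (x • B : Sylow p S) := by
    intro y hy
    refine Subgroup.mem_inf.mpr ⟨hy.1, ?_⟩
    rw [Sylow.coe_subgroup_smul, Helper1.mem_conj_smul]
    have h1 : (⟨y, hy.1⟩ : (A : Subgroup S)) ∈ (B : Subgroup S).subgroupOf A :=
      Subgroup.mem_subgroupOf.mpr hy.2
    have h2 := hnorm.conj_mem _ h1 (⟨x, hx⟩⁻¹)
    have h3 := Subgroup.mem_subgroupOf.mp h2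
    simpa using h3
  refine (Subgroup.eq_of_le_of_card_ge hle ?_).symm
  have h1 := card_inf hn hAB
  have h2 := card_inf hn (Ne.symm hYA)
  exact (Nat.eq_of_mul_eq_mul_right hp.pos (h2.trans h1.symm)).le

/-- With fewer than `p²` Sylow `p`-subgroups, every Sylow `p`-subgroup contains the
intersection of any two distinct ones. -/
theorem inf_le_all (hn : Nat.card (Sylow p S) < p ^ 2) {P Q : Sylow p S} (hPQ : P ≠ Q)
    (X : Sylow p S) : (P : Subgroup S) ⊓ Q ≤ X := by
  classical
  have hpp : p.Prime := Fact.out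
  have hDcard : Nat.card ((P : Subgroup S) ⊓ Q : Subgroup S) * p = Nat.card (P : Subgroup S) :=
    card_inf hn hPQ
  by_contra hX
  have hPn : P ∉ orbF P Q := fun h => (orb_prop hn hPQ h).1 rfl
  have hTcard : (insert P (orbF P Q)).card = p + 1 := by
    rw [Finset.card_insert_of_notMem hPn, (relIndex_eq hn hPQ).2]
  have hTD : ∀ R ∈ insert P (orbF P Q), (P : Subgroup S) ⊓ Q ≤ R := by
    intro R hR
    rcases Finset.mem_insert.mp hR with rfl | hR
    · exact inf_le_left
    · have h0 := (orb_prop hn hPQ hR).2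
      rw [← h0]; exact inf_le_right
  have hTX : ∀ R ∈ insert P (orbF P Q), X ≠ R := by
    intro R hR e
    exact hX (e ▸ hTD R hR)
  have hTT : ∀ R ∈ insert P (orbF P Q), ∀ R' ∈ insert P (orbF P Q), R ≠ R' →
      (R : Subgroup S) ⊓ R' = (P : Subgroup S) ⊓ Q := by
    intro R hR R' hR' hne
    refine (Subgroup.eq_of_le_of_card_ge (le_inf (hTD R hR) (hTD R' hR')) ?_).symm
    have h1 := card_inf hn hne
    rw [card_eq R P, ← hDcard] at h1
    exact (Nat.eq_of_mul_eq_mul_right hpp.pos h1).le
  have hdisj : (↑(insert P (orbF P Q)) : Set (Sylow p S)).PairwiseDisjoint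
      (fun R => orbF X R) := by
    intro R hR R' hR' hne
    rw [Function.onFun, Finset.disjoint_left]
    intro Y hY hY'
    have e1 := (orb_prop hn (hTX R hR) hY).2
    have e2 := (orb_prop hn (hTX R' hR') hY').2
    have e3 : (X : Subgroup S) ⊓ R = (X : Subgroup S) ⊓ R' := e1.symm.trans e2
    have h4 : (X : Subgroup S) ⊓ R ≤ (P : Subgroup S) ⊓ Q := by
      rw [← hTT R hR R' hR' hne]
      exact le_inf inf_le_right (e3 ▸ inf_le_right)
    have h5 : (X : Subgroup S) ⊓ R = (P : Subgroup S) ⊓ Q := by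
      refine Subgroup.eq_of_le_of_card_ge h4 ?_
      have h1 := card_inf hn (hTX R hR)
      rw [card_eq X P, ← hDcard] at h1
      exact (Nat.eq_of_mul_eq_mul_right hpp.pos h1).ge
    exact hX (h5 ▸ inf_le_left)
  have hcardU : ((insert P (orbF P Q)).biUnion fun R => orbF X R).card = (p + 1) * p := by
    rw [Finset.card_biUnion hdisj, Finset.sum_const_nat (m := p), hTcard]
    intro R hR
    exact (relIndex_eq hn (hTX R hR)).2
  have hXn : X ∉ (insert P (orbF P Q)).biUnion fun R => orbF X R := by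
    intro h
    obtain ⟨R, hR, hXR⟩ := Finset.mem_biUnion.mp h
    exact (orb_prop hn (hTX R hR) hXR).1 rfl
  haveI := Fintype.ofFinite (Sylow p S)
  have h6 := Finset.card_le_univ (insert X ((insert P (orbF P Q)).biUnion fun R => orbF X R))
  rw [Finset.card_insert_of_notMem hXn, hcardU, ← Nat.card_eq_fintype_card] at h6
  have h7 : (p + 1) * p = p ^ 2 + p := by ring
  rw [h7] at h6
  linarith

/-- A non-abelian finite simple group with fewer than `p²` Sylow `p`-subgroups (`p` dividing
its order) has Sylow `p`-subgroups of order `p`. -/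
theorem card_sylow_eq [IsSimpleGroup S] (hS : ¬ IsMulCommutative S) (hp : p ∣ Nat.card S)
    (hn : Nat.card (Sylow p S) < p ^ 2) (P : Sylow p S) : Nat.card (P : Subgroup S) = p := by
  have hex : ∃ Q : Sylow p S, P ≠ Q := by
    by_contra hcon
    push_neg at hcon
    haveI : Subsingleton (Sylow p S) := ⟨fun a b => (hcon a).symm.trans (hcon b)⟩
    have hnorm : (P : Subgroup S).Normal := Sylow.normal_of_subsingleton P
    rcases hnorm.eq_bot_or_eq_top with h | h
    · exact P.ne_bot_of_dvd_card hp h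
    · have hSp : IsPGroup p S := by
        have h0 := P.2
        rw [h] at h0
        exact IsPGroup.of_equiv h0 Subgroup.topEquiv
      haveI := hSp.center_nontrivial
      have hc : Subgroup.center S = ⊤ := by
        rcases (inferInstance : (Subgroup.center S).Normal).eq_bot_or_eq_top with h' | h'
        · exact absurd h' ((Subgroup.nontrivial_iff_ne_bot _).mp inferInstance)
        · exact h'
      exact hS (Subgroup.center_eq_top_iff.mp hc)
  obtain ⟨Q, hPQ⟩ := hex
  have hDcard := card_inf hn hPQ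
  have hKn : (⨅ X : Sylow p S, (X : Subgroup S)).Normal := by
    refine ⟨fun y hy g => ?_⟩
    rw [Subgroup.mem_iInf] at hy ⊢
    intro X
    have h1 := hy (g⁻¹ • X)
    rw [Sylow.coe_subgroup_smul, Helper1.mem_conj_smul] at h1
    simpa using h1
  have hK : (⨅ X : Sylow p S, (X : Subgroup S)) = ⊥ := by
    rcases hKn.eq_bot_or_eq_top with h | h
    · exact h
    · exfalso
      have h1 : (P : Subgroup S) = ⊤ := top_le_iff.mp (h ▸ iInf_le _ P)
      have h2 : (Q : Subgroup S) ≤ P := h1 ▸ le_top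
      exact hPQ (Sylow.ext (Q.3 P.2 h2))
  have hDbot : (P : Subgroup S) ⊓ Q = ⊥ := le_bot_iff.mp (hK ▸ le_iInf (inf_le_all hn hPQ))
  rw [hDbot, Subgroup.card_bot, one_mul] at hDcard
  exact hDcard.symm

end Cfsg.Agent.Lib.Helper29.SylNum
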